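import Cfsg.Agent.H415.C3.LKit

/-!
# S1920, PSL: perfect groups and lifts (helper375)

* `perf_hom` : a homomorphism from a perfect subgroup to a commutative monoid is trivial;
* `T3L` : T3 for the lifts;
* `card_ne` : the order of `Nh` is prime to the characteristic.
-/

set_option autoImplicit false

open Subgroup Module
open scoped commutatorElement

namespace Cfsg.Agent.H375.C3

open Cfsg.Agent.H415.C3

/-- a homomorphism from a perfect subgroup to a commutative monoid is trivial -/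
theorem perf_hom {X M : Type*} [Group X] [CommMonoid M] {E : Subgroup X} (hE : ⁅E, E⁆ = E) (f : ↥E →* M) (e : ↥E) :
    f e = 1 := by
  have h1 : commutator ↥E = ⊤ := by
    refine Subgroup.map_injective E.subtype_injective ?_
    rw [commutator_def, Subgroup.map_commutator, ← MonoidHom.range_eq_map, Subgroup.range_subtype]
    exact hE
  have h2 : commutator ↥E ≤ f.toHomUnits.ker := Abelianization.commutator_subset_ker f.toHomUnits
  have h3 : e ∈ f.toHomUnits.ker := h2 (by rw [h1]; exact mem_top e)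
  have h4 := congrArg Units.val (MonoidHom.mem_ker.1 h3)
  exact h4

/-- the image of a perfect subgroup is perfect -/
theorem perf_range {X Y : Type*} [Group X] [Group Y] {E : Subgroup X} (hE : ⁅E, E⁆ = E) (f : ↥E →* Y) :
    ⁅f.range, f.range⁆ = f.range := by
  have h1 : ⁅(⊤ : Subgroup ↥E), (⊤ : Subgroup ↥E)⁆ = ⊤ := by
    refine Subgroup.map_injective E.subtype_injective ?_
    rw [Subgroup.map_commutator, ← MonoidHom.range_eq_map, Subgroup.range_subtype]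
    exact hE
  rw [MonoidHom.range_eq_map, ← Subgroup.map_commutator, h1]

section L

variable {G : Type*} [Group G] {K : Type*} [Field K] {V : Type*} [AddCommGroup V] [Module K V]
variable {Gh : Subgroup (V ≃ₗ[K] V)} {π : ↥Gh →* G} {N0 A E : Subgroup G} {z s x r : G}
  {ψ : ↥A →* Equiv.Perm (Fin 6)} {Nh Eh : Subgroup (V ≃ₗ[K] V)} {zh sh xh rh : V ≃ₗ[K] V}

theorem Nh_le (L : LKit Gh π N0 A E z s x r Nh Eh zh sh xh rh) : Nh ≤ Gh := fun g hg => by
  obtain ⟨h, -⟩ := (L.mem_Nh g).1 hg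
  exact h

theorem pi_Nh (L : LKit Gh π N0 A E z s x r Nh Eh zh sh xh rh) {g : V ≃ₗ[K] V} (hg : g ∈ Nh) :
    π ⟨g, Nh_le L hg⟩ ∈ N0 := by
  obtain ⟨h, h1⟩ := (L.mem_Nh g).1 hg
  exact h1

theorem exists_Nh (hL : Lin Gh π) (L : LKit Gh π N0 A E z s x r Nh Eh zh sh xh rh) {n : G} (hn : n ∈ N0) :
    ∃ g, ∃ h : g ∈ Nh, π ⟨g, Nh_le L h⟩ = n := by
  obtain ⟨g, hg⟩ := hL.surj n
  have h1 : (g : V ≃ₗ[K] V) ∈ Nh := (L.mem_Nh _).2 ⟨g.2, by rw [← hg] at hn; exact hn⟩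
  exact ⟨g, h1, hg⟩

/-- an element of `Gh` commuting with `Nh` is mapped to an element commuting with `N0` -/
theorem comm_pi (hL : Lin Gh π) (L : LKit Gh π N0 A E z s x r Nh Eh zh sh xh rh) {g : V ≃ₗ[K] V} (hg : g ∈ Gh)
    (h : ∀ n ∈ Nh, g * n = n * g) : ∀ n ∈ N0, π ⟨g, hg⟩ * n = n * π ⟨g, hg⟩ := by
  intro n hn
  obtain ⟨m, hm, rfl⟩ := exists_Nh hL L hn
  rw [← map_mul, ← map_mul]
  exact congrArg π (Subtype.ext (h m hm))

/-- **T3 for the lifts** -/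
theorem T3L (Kt : Kit N0 A E z s x r ψ) (hL : Lin Gh π) (L : LKit Gh π N0 A E z s x r Nh Eh zh sh xh rh)
    (ρ₁ ρ₂ : ↥Eh →* ↥Gh) (h₁ : ∀ e, ∀ n ∈ Nh, (ρ₁ e : V ≃ₗ[K] V) * n = n * ρ₁ e)
    (h₂ : ∀ e, ∀ n ∈ Nh, (ρ₂ e : V ≃ₗ[K] V) * n = n * ρ₂ e) (hc : ∀ e f, ρ₁ e * ρ₂ f = ρ₂ f * ρ₁ e)
    (h : ∀ e : ↥Eh, (e : V ≃ₗ[K] V) = (ρ₁ e * ρ₂ e : ↥Gh)) : (∀ e, π (ρ₁ e) = 1) ∨ (∀ e, π (ρ₂ e) = 1) := by
  have hA : ∀ g : ↥Gh, (∀ n ∈ Nh, (g : V ≃ₗ[K] V) * n = n * g) → π g ∈ A := fun g hg =>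
    Kt.comm_mem (comm_pi hL L g.2 hg)
  rcases Kt.T3 (π.comp ρ₁).range (π.comp ρ₂).range (perf_range L.Eh_perf _) (perf_range L.Eh_perf _)
    (by rintro _ ⟨e, rfl⟩; exact hA _ (h₁ e)) (by rintro _ ⟨e, rfl⟩; exact hA _ (h₂ e))
    (by
      rintro _ ⟨e, rfl⟩ _ ⟨f, rfl⟩
      change π (ρ₁ e) * π (ρ₂ f) = π (ρ₂ f) * π (ρ₁ e)
      rw [← map_mul, hc, map_mul])
    (by
      intro e he
      obtain ⟨g, hg, hge⟩ := L.Eh_surj e he
      refine ⟨π (ρ₁ ⟨g, hg⟩), ⟨_, rfl⟩, π (ρ₂ ⟨g, hg⟩), ⟨_, rfl⟩, ?_⟩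
      rw [← map_mul, ← hge (L.Eh_le hg)]
      exact congrArg π (Subtype.ext (h ⟨g, hg⟩))) with h3 | h3
  · left
    intro e
    have : π (ρ₁ e) ∈ (π.comp ρ₁).range := ⟨e, rfl⟩
    rw [h3] at this
    exact this
  · right
    intro e
    have : π (ρ₂ e) ∈ (π.comp ρ₂).range := ⟨e, rfl⟩
    rw [h3] at this
    exact this

/-- some element of `Eh` is not a scalar -/
theorem exists_nsc (Kt : Kit N0 A E z s x r ψ) (hL : Lin Gh π) (L : LKit Gh π N0 A E z s x r Nh Eh zh sh xh rh) :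
    ∃ e ∈ Eh, ¬ IsSc e := by
  obtain ⟨g, hg, hgx⟩ := L.Eh_surj x Kt.xE
  refine ⟨g, hg, fun h => ?_⟩
  have h1 := (hL.ker ⟨g, L.Eh_le hg⟩).2 h
  rw [hgx (L.Eh_le hg)] at h1
  have h2 := Kt.psi_x (Kt.E_A Kt.xE)
  have h3 : (⟨x, Kt.E_A Kt.xE⟩ : ↥A) = 1 := Subtype.ext h1
  rw [h3, map_one] at h2
  exact c5_ne h2.symm

/-- the order of `Nh` is prime to the characteristic -/
theorem card_ne [Finite K] [FiniteDimensional K V] (h2 : (2 : K) ≠ 0) (Kt : Kit N0 A E z s x r ψ) (hL : Lin Gh π)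
    (L : LKit Gh π N0 A E z s x r Nh Eh zh sh xh rh) : (Nat.card Nh : K) ≠ 0 := by
  have hV : Finite V := Module.finite_of_finite K
  have hVV : Finite (V ≃ₗ[K] V) := Finite.of_injective (fun f : V ≃ₗ[K] V => (f : V → V)) DFunLike.coe_injective
  obtain ⟨p, hp⟩ := CharP.exists K
  have hpp : p.Prime := (CharP.char_is_prime_or_zero K p).resolve_right (by
    rintro rfl
    have : CharZero K := CharP.charP_to_charZero K
    exact not_finite K)
  have hpf := Fact.mk hpp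
  intro h0
  have hdvd : p ∣ Nat.card Nh := (CharP.cast_eq_zero_iff K p _).1 h0
  obtain ⟨g, hg⟩ := exists_prime_orderOf_dvd_card' p hdvd
  have hp2 : p ≠ 2 := by
    rintro rfl
    exact h2 (by exact_mod_cast (CharP.cast_eq_zero_iff K 2 2).2 dvd_rfl)
  have hg1 : π ⟨g, Nh_le L g.2⟩ = 1 := by
    obtain ⟨k, hk⟩ := Kt.N_two ⟨_, pi_Nh L g.2⟩
    have h3 : π ⟨g, Nh_le L g.2⟩ ^ 2 ^ k = 1 := congrArg Subtype.val hk
    have h4 : π ⟨g, Nh_le L g.2⟩ ^ p = 1 := by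
      rw [← map_pow]
      have h6 : g ^ p = 1 := by rw [← hg]; exact pow_orderOf_eq_one g
      have : (⟨g, Nh_le L g.2⟩ : ↥Gh) ^ p = 1 := Subtype.ext (congrArg (Subtype.val : ↥Nh → V ≃ₗ[K] V) h6)
      rw [this, map_one]
    have h5 : Nat.Coprime p (2 ^ k) := (Nat.Coprime.pow_right k ((Nat.coprime_primes hpp Nat.prime_two).2 hp2))
    exact (pow_eq_one_iff_of_coprime h5).1 ⟨h4, h3⟩
  obtain ⟨c, hc⟩ := (hL.ker _).1 hg1
  have hgp : (g : V ≃ₗ[K] V) ^ p = 1 := congrArg Subtype.val (by rw [← hg]; exact pow_orderOf_eq_one g : g ^ p = 1)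
  have hne : g ≠ 1 := by
    rintro rfl
    rw [orderOf_one] at hg
    exact hpp.one_lt.ne hg
  apply hne
  refine Subtype.ext (LinearEquiv.ext fun v => ?_)
  change (g : V ≃ₗ[K] V) v = v
  have hc' : ∀ v, (g : V ≃ₗ[K] V) v = c • v := hc
  have hpow : ∀ k : ℕ, ∀ v, ((g : V ≃ₗ[K] V) ^ k) v = c ^ k • v := by
    intro k
    induction k with
    | zero => intro v; simp
    | succ k ih =>
      intro v
      rw [pow_succ, LinearEquiv.mul_apply, hc', map_smul, ih, smul_smul, pow_succ, mul_comm]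
  by_cases hv : v = 0
  · rw [hv, map_zero]
  · have h3 := hpow p v
    rw [hgp] at h3
    have h4 : c ^ p = 1 := by
      have h5 : (c ^ p - 1) • v = 0 := by
        rw [sub_smul, one_smul, ← h3]
        exact sub_self v
      rcases smul_eq_zero.1 h5 with h6 | h6
      · exact sub_eq_zero.1 h6
      · exact absurd h6 hv
    have h5 : c = 1 := by
      have h6 : (c - 1) ^ p = 0 := by rw [sub_pow_char, h4, one_pow, sub_self]
      exact sub_eq_zero.1 (pow_eq_zero_iff hpp.ne_zero |>.1 h6)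
    rw [hc', h5, one_smul]

end L

end Cfsg.Agent.H375.C3
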