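import Cfsg.Agent.H375.C3.Wed
import Cfsg.Agent.H375.C3.Perf

/-!
# S1920, PSL: the component of `Eh` (helper375)

`exists_comp` : `Gh ≥ SL(V)`: there is an injective homomorphism `j : M_n(D) → End_K(V)` of algebras without `1`, with
image commuting with `Nh`, `j 1 ≠ 1`, and `Eh ≤ 1 + j(SL_n(D) - 1)`.
-/

set_option autoImplicit false

open Subgroup Module
open scoped commutatorElement

namespace Cfsg.Agent.H375.C3

open Cfsg.Agent.H415.C3

universe u v w

/-- a component of the commutant containing `E` -/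
structure Comp {K : Type u} [Field K] {V : Type v} [AddCommGroup V] [Module K V] (N E : Subgroup (V ≃ₗ[K] V)) (n : ℕ)
    (D : Type w) [Field D] [Algebra K D] (j : Matrix (Fin n) (Fin n) D →ₙₐ[K] Module.End K V) : Prop where
  inj : Function.Injective j
  comm : ∀ X, ∀ g ∈ N, j X * ((g : V ≃ₗ[K] V) : V →ₗ[K] V) = ((g : V ≃ₗ[K] V) : V →ₗ[K] V) * j X
  ne : j 1 ≠ 1
  E : ∀ e ∈ E, ∃ U : Matrix.SpecialLinearGroup (Fin n) D,
    ((e : V ≃ₗ[K] V) : V →ₗ[K] V) = 1 + j ((U : Matrix (Fin n) (Fin n) D) - 1)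

/-- an index with its algebra, as an algebra homomorphism without `1` -/
def single {K : Type u} [Field K] {k : ℕ} (B : Fin k → Type v) [∀ i, Ring (B i)] [∀ i, Algebra K (B i)] (i : Fin k) :
    B i →ₙₐ[K] (∀ i, B i) where
  toFun := Pi.single i
  map_smul' c x := Pi.single_smul i c x
  map_zero' := Pi.single_zero i
  map_add' x y := Pi.single_add i x y
  map_mul' x y := Pi.single_mul i x y

variable {G : Type*} [Group G] {K : Type u} [Field K] {V : Type v} [AddCommGroup V] [Module K V]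
variable {Gh : Subgroup (V ≃ₗ[K] V)} {π : ↥Gh →* G} {N0 A E : Subgroup G} {z s x r : G}
  {ψ : ↥A →* Equiv.Perm (Fin 6)} {Nh Eh : Subgroup (V ≃ₗ[K] V)} {zh sh xh rh : V ≃ₗ[K] V}

theorem isSc_iff (g : V ≃ₗ[K] V) : IsSc g ↔ ∃ c : K, ((g : V ≃ₗ[K] V) : V →ₗ[K] V) = c • (1 : Module.End K V) := by
  constructor
  · rintro ⟨c, hc⟩
    exact ⟨c, LinearMap.ext hc⟩
  · rintro ⟨c, hc⟩
    exact ⟨c, fun v => congrArg (fun t : Module.End K V => t v) hc⟩

/-- **The component of `Eh`.** -/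
theorem exists_comp [Finite K] [FiniteDimensional K V] (h2 : (2 : K) ≠ 0) (Kt : Kit N0 A E z s x r ψ) (hL : Lin Gh π)
    (L : LKit Gh π N0 A E z s x r Nh Eh zh sh xh rh)
    (hGh : ∀ g : V ≃ₗ[K] V, LinearMap.det (g : V →ₗ[K] V) = 1 → g ∈ Gh) :
    ∃ (n : ℕ) (D : Type v) (_ : Field D) (_ : Finite D) (_ : Algebra K D)
      (j : Matrix (Fin n) (Fin n) D →ₙₐ[K] Module.End K V), Comp Nh Eh n D j := by
  classical
  have hV : Finite V := Module.finite_of_finite K
  have hVV : Finite (V ≃ₗ[K] V) := Finite.of_injective (fun f : V ≃ₗ[K] V => (f : V → V)) DFunLike.coe_injective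
  obtain ⟨k, D, m, hD, hAl, hDf, hm, J, hJ, hcen⟩ := exists_wed Nh (card_ne h2 Kt hL L)
  let B : Fin k → Type v := fun i => Matrix (Fin (m i)) (Fin (m i)) (D i)
  -- scalars
  have hone : ∀ i, ∀ c : K, c • (1 : B i) = 1 → c = 1 := by
    intro i c hc
    have h3 : (c - 1) • (1 : B i) = 0 := by rw [sub_smul, one_smul, hc, sub_self]
    rcases smul_eq_zero.1 h3 with h4 | h4
    · exact sub_eq_zero.1 h4
    · exact absurd h4 one_ne_zero
  have hJs : ∀ (c : K) (X : ∀ i, B i), J X = c • 1 → X = c • 1 := by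
    intro c X h
    refine hJ ?_
    rw [h, map_smul, map_one]
  -- there are two components
  have htwo : ∀ i : Fin k, ∃ i' : Fin k, i' ≠ i := by
    intro i
    by_contra hcon
    push Not at hcon
    obtain ⟨ζ, hζ⟩ := (hcen (zh : V →ₗ[K] V)).1 (fun g hg => LinearMap.ext fun v =>
      congrArg (fun t : V ≃ₗ[K] V => t v) (L.z_comm g hg))
    have hcomm : ∀ X, ζ * X = X * ζ := by
      intro X
      refine hJ ?_
      rw [map_mul, map_mul, hζ]
      exact ((hcen (J X)).2 ⟨X, rfl⟩ zh L.zN).symm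
    have hsq : ζ * ζ = 1 := by
      refine hJ ?_
      rw [map_mul, hζ, map_one]
      exact LinearMap.ext fun v => congrArg (fun t : V ≃ₗ[K] V => t v) L.z_sq
    have hci : ζ i ∈ Set.range (Matrix.scalar (Fin (m i)) : D i → Matrix (Fin (m i)) (Fin (m i)) (D i)) := by
      rw [Matrix.mem_range_scalar_iff_commute_single']
      intro a b
      have h3 := congrFun (hcomm (Pi.single i (Matrix.single a b 1))) i
      rw [Pi.mul_apply, Pi.mul_apply, Pi.single_eq_same] at h3
      exact h3.symm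
    obtain ⟨d, hd⟩ := hci
    have hdd : d * d = 1 := by
      have h3 := congrFun hsq i
      rw [Pi.mul_apply, ← hd, ← map_mul] at h3
      have h4 := congrFun (congrFun h3 0) 0
      simpa using h4
    have hζ1 : ζ = 1 ∨ ζ = -1 := by
      rcases mul_self_eq_one_iff.1 hdd with h3 | h3
      · left
        funext i'
        rw [hcon i', ← hd, h3, map_one]
        rfl
      · right
        funext i'
        rw [hcon i', ← hd, h3, map_neg, map_one]
        rfl
    apply L.z_ne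
    rw [isSc_iff]
    rcases hζ1 with h3 | h3
    · exact ⟨1, by rw [← hζ, h3, map_one, one_smul]⟩
    · exact ⟨-1, by rw [← hζ, h3, map_neg, map_one, neg_smul, one_smul]⟩
  -- the coordinates of `Eh`
  have hc0 : ∀ e : ↥Eh, ∃ X, J X = ((e : V ≃ₗ[K] V) : V →ₗ[K] V) := fun e =>
    (hcen _).1 fun g hg => LinearMap.ext fun v => congrArg (fun t : V ≃ₗ[K] V => t v) (L.Eh_comm e e.2 g hg)
  choose c0 hc0 using hc0
  let c : ↥Eh →* (∀ i, B i) :=
    { toFun := c0
      map_one' := hJ (by rw [hc0, map_one]; rfl)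
      map_mul' := fun e f => hJ (by rw [map_mul, hc0, hc0, hc0]; rfl) }
  have hc : ∀ e : ↥Eh, J (c e) = ((e : V ≃ₗ[K] V) : V →ₗ[K] V) := hc0
  have hdet : ∀ (e : ↥Eh) (i : Fin k), Matrix.det (c e i) = 1 := fun e i =>
    perf_hom L.Eh_perf ((Matrix.detMonoidHom : B i →* D i).comp ((Pi.evalMonoidHom B i).comp c)) e
  -- a nontrivial coordinate
  obtain ⟨e₀, i, hi⟩ : ∃ (e : ↥Eh) (i : Fin k), c e i ≠ 1 := by
    by_contra hcon
    push Not at hcon
    obtain ⟨e, he, hne⟩ := exists_nsc Kt hL L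
    apply hne
    rw [isSc_iff]
    refine ⟨1, ?_⟩
    rw [← hc ⟨e, he⟩, one_smul]
    have : c ⟨e, he⟩ = 1 := funext fun i => hcon _ i
    rw [this, map_one]
  let c₁ : ↥Eh →* (∀ i, B i) := (MonoidHom.mulSingle B i).comp ((Pi.evalMonoidHom B i).comp c)
  have hc₁ : ∀ e, c₁ e = Pi.mulSingle i (c e i) := fun e => rfl
  let c₂ : ↥Eh →* (∀ i, B i) :=
    { toFun := fun e => Function.update (c e) i 1
      map_one' := by
        rw [map_one]
        exact Function.update_eq_self i (1 : ∀ i, B i)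
      map_mul' := by
        intro e f
        funext i'
        rw [Pi.mul_apply]
        by_cases h : i' = i
        · subst h
          rw [Function.update_self, Function.update_self, Function.update_self, one_mul]
        · rw [Function.update_of_ne h, Function.update_of_ne h, Function.update_of_ne h, map_mul, Pi.mul_apply] }
  have hc₂ : ∀ e, c₂ e = Function.update (c e) i 1 := fun e => rfl
  let θ : (∀ i, B i)ˣ →* (V ≃ₗ[K] V) :=
    (LinearMap.GeneralLinearGroup.generalLinearEquiv K V).toMonoidHom.comp (Units.map (J : (∀ i, B i) →* Module.End K V))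
  have hθ : ∀ u : (∀ i, B i)ˣ, ((θ u : V ≃ₗ[K] V) : V →ₗ[K] V) = J (u : ∀ i, B i) := fun u => LinearMap.ext fun v => rfl
  have key : ∀ f : ↥Eh →* (∀ i, B i), ∀ e, θ (f.toHomUnits e) ∈ Gh := by
    intro f e
    apply hGh
    rw [hθ]
    exact perf_hom L.Eh_perf ((LinearMap.det : Module.End K V →* K).comp ((J : (∀ i, B i) →* Module.End K V).comp f)) e
  let ρ₁ : ↥Eh →* ↥Gh := (θ.comp c₁.toHomUnits).codRestrict Gh (key c₁)
  let ρ₂ : ↥Eh →* ↥Gh := (θ.comp c₂.toHomUnits).codRestrict Gh (key c₂)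
  have hρ₁ : ∀ e, (((ρ₁ e : ↥Gh) : V ≃ₗ[K] V) : V →ₗ[K] V) = J (c₁ e) := fun e => hθ _
  have hρ₂ : ∀ e, (((ρ₂ e : ↥Gh) : V ≃ₗ[K] V) : V →ₗ[K] V) = J (c₂ e) := fun e => hθ _
  have hcom : ∀ (X : ∀ i, B i) (g : V ≃ₗ[K] V), (g : V →ₗ[K] V) = J X → ∀ n ∈ Nh, g * n = n * g := by
    intro X g hg n hn
    refine LinearEquiv.toLinearMap_injective ?_
    have h3 := (hcen (g : V →ₗ[K] V)).2 ⟨X, hg.symm⟩ n hn
    exact h3
  have hc12 : ∀ e f, c₁ e * c₂ f = c₂ f * c₁ e := by
    intro e f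
    funext i'
    rw [Pi.mul_apply, Pi.mul_apply, hc₁, hc₂]
    by_cases h : i' = i
    · subst h
      rw [Pi.mulSingle_eq_same, Function.update_self, one_mul, mul_one]
    · rw [Pi.mulSingle_eq_of_ne h, one_mul, mul_one]
  have hprod : ∀ e, c₁ e * c₂ e = c e := by
    intro e
    funext i'
    rw [Pi.mul_apply, hc₁, hc₂]
    by_cases h : i' = i
    · subst h
      rw [Pi.mulSingle_eq_same, Function.update_self, mul_one]
    · rw [Pi.mulSingle_eq_of_ne h, one_mul, Function.update_of_ne h]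
  have hT := T3L Kt hL L ρ₁ ρ₂ (fun e n hn => hcom _ _ (hρ₁ e) n hn) (fun e n hn => hcom _ _ (hρ₂ e) n hn)
    (fun e f => Subtype.ext (LinearEquiv.toLinearMap_injective (by
      have h3 : J (c₁ e) * J (c₂ f) = J (c₂ f) * J (c₁ e) := by rw [← map_mul, hc12, map_mul]
      exact h3)))
    (fun e => LinearEquiv.toLinearMap_injective (by
      have h3 : J (c e) = J (c₁ e) * J (c₂ e) := by rw [← map_mul, hprod]
      rw [hc] at h3
      exact h3))
  have hall : ∀ e, c e = Pi.mulSingle i (c e i) := by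
    rcases hT with h3 | h3
    · exfalso
      obtain ⟨a, ha⟩ := (isSc_iff _).1 ((hL.ker _).1 (h3 e₀))
      rw [hρ₁] at ha
      have h4 := hJs a _ ha
      obtain ⟨i', hi'⟩ := htwo i
      have h5 := congrFun h4 i'
      rw [hc₁, Pi.mulSingle_eq_of_ne hi', Pi.smul_apply, Pi.one_apply] at h5
      have h6 : a = 1 := hone i' a h5.symm
      have h7 := congrFun h4 i
      rw [hc₁, Pi.mulSingle_eq_same, h6, one_smul] at h7
      exact hi h7
    · intro e
      obtain ⟨a, ha⟩ := (isSc_iff _).1 ((hL.ker _).1 (h3 e))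
      rw [hρ₂] at ha
      have h4 := hJs a _ ha
      have h5 := congrFun h4 i
      rw [hc₂, Function.update_self, Pi.smul_apply, Pi.one_apply] at h5
      have h6 : a = 1 := hone i a h5.symm
      rw [h6, one_smul] at h4
      have h7 : c e = c₁ e := by rw [← hprod e, h4, mul_one]
      rw [← hc₁]
      exact h7
  refine ⟨m i, D i, hD i, hDf i, hAl i, (J.toNonUnitalAlgHom : (∀ i, B i) →ₙₐ[K] Module.End K V).comp (single B i), ?_, ?_, ?_, ?_⟩
  · intro X Y h
    exact Pi.single_injective (M := B) i (hJ h)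
  · intro X g hg
    exact (hcen _).2 ⟨_, rfl⟩ g hg
  · intro h
    obtain ⟨i', hi'⟩ := htwo i
    have h3 : (Pi.single i 1 : ∀ i, B i) = 1 := hJ (by rw [map_one]; exact h)
    have h4 := congrFun h3 i'
    rw [Pi.single_eq_of_ne hi'] at h4
    exact zero_ne_one h4
  · intro e he
    refine ⟨⟨c ⟨e, he⟩ i, hdet _ _⟩, ?_⟩
    change ((e : V ≃ₗ[K] V) : V →ₗ[K] V) = 1 + J (Pi.single i (c ⟨e, he⟩ i - 1))
    rw [← map_one J, ← map_add]
    refine ((hc ⟨e, he⟩).symm.trans (congrArg J (hall ⟨e, he⟩))).trans (congrArg J ?_)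
    funext i'
    rw [Pi.add_apply, Pi.one_apply]
    by_cases h : i' = i
    · subst h
      rw [Pi.mulSingle_eq_same, Pi.single_eq_same, add_sub_cancel]
    · rw [Pi.mulSingle_eq_of_ne h, Pi.single_eq_of_ne h, add_zero]

end Cfsg.Agent.H375.C3
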