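import Cfsg.Agent.H375.C3.Comp
import Cfsg.Agent.H375.C3.Nine
import Cfsg.Agent.H402.PSL2Cls
import Cfsg.Agent.ClassicalGeometry.PSL2Basic

/-!
# S1920, PSL: the contradiction (helper375)
-/

set_option autoImplicit false

open Subgroup Module
open scoped commutatorElement

namespace Cfsg.Agent.H375.C3

open Cfsg.Agent.H415.C3

universe u v w

section J

variable {K : Type u} [Field K] {V : Type v} [AddCommGroup V] [Module K V] {n : ℕ} {D : Type w} [Field D] [Algebra K D]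

/-- `U ↦ 1 + j (U - 1)` -/
def lam (j : Matrix (Fin n) (Fin n) D →ₙₐ[K] Module.End K V) : Matrix (Fin n) (Fin n) D →* Module.End K V where
  toFun U := 1 + j (U - 1)
  map_one' := by rw [sub_self, map_zero, add_zero]
  map_mul' U W := by
    have h1 : U * W - 1 = (U - 1) + (W - 1) + (U - 1) * (W - 1) := by noncomm_ring
    rw [h1, map_add, map_add, map_mul]
    noncomm_ring

theorem lam_apply (j : Matrix (Fin n) (Fin n) D →ₙₐ[K] Module.End K V) (U : Matrix (Fin n) (Fin n) D) :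
    lam j U = 1 + j (U - 1) := rfl

/-- the corresponding element of `GL(V)` -/
noncomputable def Lam (j : Matrix (Fin n) (Fin n) D →ₙₐ[K] Module.End K V) : (Matrix (Fin n) (Fin n) D)ˣ →* (V ≃ₗ[K] V) :=
  (LinearMap.GeneralLinearGroup.generalLinearEquiv K V).toMonoidHom.comp (Units.map (lam j))

theorem coe_Lam (j : Matrix (Fin n) (Fin n) D →ₙₐ[K] Module.End K V) (U : (Matrix (Fin n) (Fin n) D)ˣ) :
    ((Lam j U : V ≃ₗ[K] V) : V →ₗ[K] V) = lam j (U : Matrix (Fin n) (Fin n) D) := LinearMap.ext fun _ => rfl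

variable {N E : Subgroup (V ≃ₗ[K] V)} {j : Matrix (Fin n) (Fin n) D →ₙₐ[K] Module.End K V}

theorem Comp.Lam_comm (C : Comp N E n D j) (U : (Matrix (Fin n) (Fin n) D)ˣ) {g : V ≃ₗ[K] V} (hg : g ∈ N) :
    Lam j U * g = g * Lam j U := by
  refine LinearEquiv.toLinearMap_injective ?_
  have h1 := C.comm ((U : Matrix (Fin n) (Fin n) D) - 1) g hg
  have h2 : lam j (U : Matrix (Fin n) (Fin n) D) * (g : V →ₗ[K] V) = (g : V →ₗ[K] V) * lam j (U : Matrix (Fin n) (Fin n) D) := by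
    rw [lam_apply, add_mul, mul_add, one_mul, mul_one, h1]
  rw [← coe_Lam] at h2
  exact h2

theorem Comp.eq_one (C : Comp N E n D j) {U : (Matrix (Fin n) (Fin n) D)ˣ} (h : IsSc (Lam j U)) : U = 1 := by
  obtain ⟨c, hc⟩ := (isSc_iff _).1 h
  rw [coe_Lam, lam_apply] at hc
  have h1 : j ((U : Matrix (Fin n) (Fin n) D) - 1) * (1 - j 1) = 0 := by
    rw [mul_sub, mul_one, ← map_mul, mul_one, sub_self]
  have h2 : (c - 1) • (1 - j 1) = 0 := by
    have h3 := congrArg (fun t => t * (1 - j 1)) hc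
    simp only [add_mul, one_mul, h1, add_zero, smul_mul_assoc] at h3
    rw [sub_smul, one_smul, ← h3, sub_self]
  have h3 : c = 1 := by
    rcases smul_eq_zero.1 h2 with h4 | h4
    · exact sub_eq_zero.1 h4
    · exact absurd (sub_eq_zero.1 h4).symm C.ne
  rw [h3, one_smul] at hc
  have h4 : j ((U : Matrix (Fin n) (Fin n) D) - 1) = j 0 := by
    rw [map_zero]
    exact add_eq_left.1 hc
  exact Units.ext (sub_eq_zero.1 (C.inj h4))

theorem Comp.mem_E (C : Comp N E n D j) {e : V ≃ₗ[K] V} (he : e ∈ E) :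
    ∃ U : Matrix.SpecialLinearGroup (Fin n) D, Lam j (Matrix.SpecialLinearGroup.toGL U) = e := by
  obtain ⟨U, hU⟩ := C.E e he
  refine ⟨U, LinearEquiv.toLinearMap_injective ?_⟩
  rw [coe_Lam, hU]
  rfl

end J

variable {G : Type*} [Group G] {K : Type u} [Field K] {V : Type v} [AddCommGroup V] [Module K V]
variable {Gh : Subgroup (V ≃ₗ[K] V)} {π : ↥Gh →* G} {N0 A E : Subgroup G} {z s x r : G}
  {ψ : ↥A →* Equiv.Perm (Fin 6)} {Nh Eh : Subgroup (V ≃ₗ[K] V)} {zh sh xh rh : V ≃ₗ[K] V}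

/-- `n = 2`, `|D| = 9` -/
theorem two_nine [Finite K] (h2 : (2 : K) ≠ 0) (Kt : Kit N0 A E z s x r ψ) (hL : Lin Gh π)
    (L : LKit Gh π N0 A E z s x r Nh Eh zh sh xh rh)
    (hGh : ∀ g : V ≃ₗ[K] V, LinearMap.det (g : V →ₗ[K] V) = 1 → g ∈ Gh)
    {n : ℕ} {D : Type v} [Field D] [Finite D] [Algebra K D] {j : Matrix (Fin n) (Fin n) D →ₙₐ[K] Module.End K V}
    (C : Comp Nh Eh n D j) :
    n = 2 ∧ Nat.card D = 9 ∧ ∀ U : Matrix.SpecialLinearGroup (Fin n) D, Lam j (Matrix.SpecialLinearGroup.toGL U) ∈ Gh := by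
  classical
  have hft := Fintype.ofFinite D
  have hodd : Odd (Nat.card D) := by
    rw [Nat.card_eq_fintype_card]
    have h3 : ringChar D ≠ 2 := by
      intro h
      have h4 : ((2 : ℕ) : D) = 0 := by rw [← h]; exact ringChar.Nat.cast_ringChar
      have h5 : algebraMap K D 2 = 0 := by rw [map_ofNat]; exact_mod_cast h4
      exact h2 ((map_eq_zero _).1 h5)
    exact (FiniteField.odd_card_of_char_ne_two h3 |> fun h => by
      rw [Nat.odd_iff]; exact h)
  let Λ : Matrix.SpecialLinearGroup (Fin n) D →* (V ≃ₗ[K] V) := (Lam j).comp Matrix.SpecialLinearGroup.toGL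
  have hΛA : ∀ U, ∀ h : Λ U ∈ Gh, π ⟨Λ U, h⟩ ∈ A := fun U h =>
    Kt.comm_mem (comm_pi hL L h fun g hg => C.Lam_comm _ hg)
  -- the order
  have hex : ∀ τ : alternatingGroup (Fin 6), ∃ U : Matrix.SpecialLinearGroup (Fin n) D, ∃ h : Λ U ∈ Gh,
      ψ ⟨π ⟨Λ U, h⟩, hΛA U h⟩ = τ := by
    intro τ
    obtain ⟨e, he, hτ⟩ := Kt.E_img τ (Equiv.Perm.mem_alternatingGroup.1 τ.2)
    obtain ⟨g, hg, hge⟩ := L.Eh_surj e he
    obtain ⟨U, hU⟩ := C.mem_E hg
    have hU' : Λ U = g := hU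
    subst hU'
    refine ⟨U, L.Eh_le hg, ?_⟩
    have h3 := hge (L.Eh_le hg)
    subst h3
    exact hτ _
  choose u hu huτ using hex
  have hui : Function.Injective u := by
    intro τ τ' h
    refine Subtype.ext ?_
    rw [← huτ τ, ← huτ τ']
    congr 3
    exact Subtype.ext (congrArg Λ h)
  have hcard : 360 ≤ Nat.card (Matrix.SpecialLinearGroup (Fin n) D) := by
    have h3 := Nat.card_le_card_of_injective u hui
    have hA : Nat.card (alternatingGroup (Fin 6)) = 360 := by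
      rw [nat_card_alternatingGroup]
      simp [Nat.factorial]
    rwa [hA] at h3
  have hperf := perf_SL hodd n hcard
  have hmem : ∀ U, Λ U ∈ Gh := by
    intro U
    apply hGh
    let f : Matrix.SpecialLinearGroup (Fin n) D →* K :=
      (LinearMap.det : Module.End K V →* K).comp ((lam j).comp (Units.coeHom _ |>.comp Matrix.SpecialLinearGroup.toGL))
    have h3 : f.toHomUnits U = 1 := by
      have h4 : commutator (Matrix.SpecialLinearGroup (Fin n) D) ≤ f.toHomUnits.ker :=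
        Abelianization.commutator_subset_ker f.toHomUnits
      rw [hperf] at h4
      exact h4 (mem_top U)
    have h5 := congrArg Units.val h3
    have h6 : ((Λ U : V ≃ₗ[K] V) : V →ₗ[K] V) = lam j (U : Matrix (Fin n) (Fin n) D) := coe_Lam _ _
    rw [h6]
    exact h5
  have hs : ∀ U, Equiv.Perm.sign (ψ ⟨π ⟨Λ U, hmem U⟩, hΛA U (hmem U)⟩) = 1 := fun U =>
    Kt.even_of_comm (comm_pi hL L (hmem U) fun g hg => C.Lam_comm _ hg) _
  let f1 : Matrix.SpecialLinearGroup (Fin n) D →* ↥Gh := Λ.codRestrict Gh hmem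
  let f2 : Matrix.SpecialLinearGroup (Fin n) D →* ↥A := (π.comp f1).codRestrict A fun U => hΛA U (hmem U)
  let f : Matrix.SpecialLinearGroup (Fin n) D →* alternatingGroup (Fin 6) :=
    (ψ.comp f2).codRestrict (alternatingGroup (Fin 6)) fun U => Equiv.Perm.mem_alternatingGroup.2 (hs U)
  have hf : Function.Surjective f := fun τ => ⟨u τ, Subtype.ext (huτ τ)⟩
  obtain ⟨hn, hD9⟩ := nine hodd n f hf
  exact ⟨hn, hD9, hmem⟩

/-- the case `|K| = 3` : an element of order 8 -/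
theorem case_three [Finite G] [Finite K] [FiniteDimensional K V] (Kt : Kit N0 A E z s x r ψ) (hL : Lin Gh π)
    (L : LKit Gh π N0 A E z s x r Nh Eh zh sh xh rh)
    (hGh : ∀ g : V ≃ₗ[K] V, LinearMap.det (g : V →ₗ[K] V) = 1 → g ∈ Gh)
    {D : Type v} [Field D] [Finite D] [Algebra K D] {j : Matrix (Fin 2) (Fin 2) D →ₙₐ[K] Module.End K V}
    (C : Comp Nh Eh 2 D j) (hD : Nat.card D = 9) (hK : Nat.card K = 3) : False := by
  classical
  obtain ⟨ω, hω⟩ : ∃ ω : Dˣ, orderOf ω = 8 := by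
    obtain ⟨ω, hω⟩ := IsCyclic.exists_generator (α := Dˣ)
    refine ⟨ω, ?_⟩
    rw [orderOf_eq_card_of_forall_mem_zpowers hω, Nat.card_units, hD]
  let u : (Matrix (Fin 2) (Fin 2) D)ˣ := Units.map (Matrix.scalar (Fin 2) : D →+* Matrix (Fin 2) (Fin 2) D).toMonoidHom ω
  have hu : (u : Matrix (Fin 2) (Fin 2) D) = Matrix.scalar (Fin 2) (ω : D) := rfl
  -- the determinant
  have hdet : LinearMap.det (lam j (Matrix.scalar (Fin 2) (ω : D))) = 1 := by
    have h1 : Matrix.scalar (Fin 2) (ω : D) = !![0, 1; -1, 0] * !![(ω : D), 0; 0, 1] * !![0, -1; 1, 0] * !![(ω : D), 0; 0, 1] := by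
      ext a b
      fin_cases a <;> fin_cases b <;> simp [Matrix.mul_apply, Fin.sum_univ_two]
    have h2 : LinearMap.det (lam j !![0, 1; -1, 0]) * LinearMap.det (lam j !![0, -1; 1, 0]) = 1 := by
      rw [← map_mul, ← map_mul]
      have : (!![0, 1; -1, 0] : Matrix (Fin 2) (Fin 2) D) * !![0, -1; 1, 0] = 1 := by
        ext a b
        fin_cases a <;> fin_cases b <;> simp [Matrix.mul_apply, Fin.sum_univ_two]
      rw [this, map_one, map_one]
    have h3 : LinearMap.det (lam j !![(ω : D), 0; 0, 1]) * LinearMap.det (lam j !![(ω : D), 0; 0, 1]) = 1 := by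
      have h4 : LinearMap.det (lam j !![(ω : D), 0; 0, 1]) ≠ 0 := by
        have h5 : LinearMap.det (lam j !![(ω : D), 0; 0, 1]) * LinearMap.det (lam j !![((ω⁻¹ : Dˣ) : D), 0; 0, 1]) = 1 := by
          rw [← map_mul, ← map_mul]
          have : (!![(ω : D), 0; 0, 1] : Matrix (Fin 2) (Fin 2) D) * !![((ω⁻¹ : Dˣ) : D), 0; 0, 1] = 1 := by
            ext a b
            fin_cases a <;> fin_cases b <;> simp [Matrix.mul_apply, Fin.sum_univ_two]
          rw [this, map_one, map_one]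
        intro h0
        rw [h0, zero_mul] at h5
        exact zero_ne_one h5
      have hft := Fintype.ofFinite K
      have h5 := FiniteField.pow_card_sub_one_eq_one _ h4
      rw [← Nat.card_eq_fintype_card, hK] at h5
      rw [← pow_two]
      exact h5
    rw [h1, map_mul, map_mul, map_mul, map_mul, map_mul, map_mul]
    calc _ = (LinearMap.det (lam j !![0, 1; -1, 0]) * LinearMap.det (lam j !![0, -1; 1, 0])) *
        (LinearMap.det (lam j !![(ω : D), 0; 0, 1]) * LinearMap.det (lam j !![(ω : D), 0; 0, 1])) := by ring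
      _ = 1 := by rw [h2, h3, one_mul]
  have hmem : Lam j u ∈ Gh := by
    apply hGh
    rw [coe_Lam, hu]
    exact hdet
  have hcN := comm_pi hL L hmem fun g hg => C.Lam_comm _ hg
  have hcE : ∀ e ∈ E, π ⟨Lam j u, hmem⟩ * e = e * π ⟨Lam j u, hmem⟩ := by
    intro e he
    obtain ⟨g, hg, hge⟩ := L.Eh_surj e he
    obtain ⟨U, hU⟩ := C.mem_E hg
    rw [← hge (L.Eh_le hg), ← map_mul, ← map_mul]
    refine congrArg π (Subtype.ext ?_)
    change Lam j u * g = g * Lam j u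
    rw [← hU, ← map_mul, ← map_mul]
    congr 1
    refine Units.ext ?_
    change (u : Matrix (Fin 2) (Fin 2) D) * (U : Matrix (Fin 2) (Fin 2) D) = (U : Matrix (Fin 2) (Fin 2) D) * (u : Matrix (Fin 2) (Fin 2) D)
    rw [hu]
    exact (Matrix.scalar_commute (ω : D) (fun _ => mul_comm _ _) _).eq
  have hpow : (π ⟨Lam j u, hmem⟩) ^ 2 ^ 3 = 1 := by
    have h1 : u ^ 8 = 1 := by
      rw [← map_pow, ← hω, pow_orderOf_eq_one, map_one]
    have h2 : (⟨Lam j u, hmem⟩ : ↥Gh) ^ 2 ^ 3 = 1 := Subtype.ext (by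
      change (Lam j u) ^ 8 = 1
      rw [← map_pow, h1, map_one])
    rw [← map_pow, h2, map_one]
  have h4 := Kt.T4E hcN hpow hcE
  have h5 : (π ⟨Lam j u, hmem⟩) ^ 4 = 1 := by
    obtain ⟨i, hi⟩ := mem_zpowers_iff.1 h4
    rw [← hi, ← zpow_natCast, ← zpow_mul, mul_comm, zpow_mul]
    have h6 := Kt.s_four
    rw [zpow_natCast, h6, one_zpow]
  rw [← map_pow] at h5
  have h6 := (hL.ker _).1 h5
  have h7 : IsSc (Lam j (u ^ 4)) := by
    rw [map_pow]
    exact h6
  have h8 : u ^ 4 = 1 := C.eq_one h7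
  have h9 : ω ^ 4 = 1 := by
    have h10 := congrArg (fun t : (Matrix (Fin 2) (Fin 2) D)ˣ => (t : Matrix (Fin 2) (Fin 2) D) 0 0) h8
    refine Units.ext ?_
    have h11 : (u ^ 4 : (Matrix (Fin 2) (Fin 2) D)ˣ) = Units.map (Matrix.scalar (Fin 2) : D →+* Matrix (Fin 2) (Fin 2) D).toMonoidHom (ω ^ 4) := by
      rw [map_pow]
    rw [h11] at h10
    have h12 : (Matrix.scalar (Fin 2) ((ω ^ 4 : Dˣ) : D)) 0 0 = (1 : Matrix (Fin 2) (Fin 2) D) 0 0 := h10
    rw [Matrix.scalar_apply, Matrix.diagonal_apply_eq, Matrix.one_apply_eq] at h12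
    exact h12
  have h10 := orderOf_dvd_of_pow_eq_one h9
  rw [hω] at h10
  norm_num at h10

section Tr

variable {D : Type v} [Field D]

open Cfsg.Agent.H402.PSL2Cls (tr)

theorem ch (X : Matrix.SpecialLinearGroup (Fin 2) D) :
    (X : Matrix (Fin 2) (Fin 2) D) * X = tr X • (X : Matrix (Fin 2) (Fin 2) D) - 1 := by
  have ht : (X : Matrix (Fin 2) (Fin 2) D).trace = tr X := Matrix.trace_fin_two _
  rw [← ht]
  exact Cfsg.Agent.ClassicalGeometry.PSL2Basic.sl2_mul_self X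

theorem pow_six (h3 : (3 : D) = 0) (X : Matrix.SpecialLinearGroup (Fin 2) D) (h : tr X ^ 2 = 4) : X ^ 6 = 1 := by
  have h4 : (tr X + 1) * (tr X - 1) = 0 := by linear_combination h + h3
  have ht : (X : Matrix (Fin 2) (Fin 2) D).trace = tr X := Matrix.trace_fin_two _
  rcases mul_eq_zero.1 h4 with h5 | h5
  · have h6 : X ^ 3 = 1 := Cfsg.Agent.ClassicalGeometry.PSL2Basic.sl2_cube_of_trace_neg_one
      (by rw [ht]; exact eq_neg_of_add_eq_zero_left h5)
    rw [show 6 = 3 * 2 by norm_num, pow_mul, h6, one_pow]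
  · have h6 : X ^ 3 = -1 := Cfsg.Agent.ClassicalGeometry.PSL2Basic.sl2_cube_of_trace_one
      (by rw [ht]; exact sub_eq_zero.1 h5)
    rw [show 6 = 3 * 2 by norm_num, pow_mul, h6]
    exact neg_one_sq

end Tr

/-- the case `|K| = 9` -/
theorem case_nine [Finite G] [Finite K] (Kt : Kit N0 A E z s x r ψ) (hL : Lin Gh π)
    (L : LKit Gh π N0 A E z s x r Nh Eh zh sh xh rh)
    {D : Type v} [Field D] [Finite D] [Algebra K D] {j : Matrix (Fin 2) (Fin 2) D →ₙₐ[K] Module.End K V}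
    (C : Comp Nh Eh 2 D j) (hmem : ∀ U : Matrix.SpecialLinearGroup (Fin 2) D, Lam j (Matrix.SpecialLinearGroup.toGL U) ∈ Gh)
    (hD : Nat.card D = 9) (hK : Nat.card K = 9) : False := by
  classical
  have hft := Fintype.ofFinite D
  have hfk := Fintype.ofFinite K
  have h3 : (3 : D) = 0 := by
    have h1 : ((9 : ℕ) : D) = 0 := by
      rw [← hD, Nat.card_eq_fintype_card]
      exact FiniteField.cast_card_eq_zero D
    have h2 : (3 : D) * 3 = 0 := by
      rw [← h1]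
      norm_num
    exact mul_self_eq_zero.1 h2
  have hbij : Function.Bijective (algebraMap K D) := by
    rw [Fintype.bijective_iff_injective_and_card]
    refine ⟨(algebraMap K D).injective, ?_⟩
    rw [← Nat.card_eq_fintype_card, ← Nat.card_eq_fintype_card, hD, hK]
  let Λ : Matrix.SpecialLinearGroup (Fin 2) D →* (V ≃ₗ[K] V) := (Lam j).comp Matrix.SpecialLinearGroup.toGL
  have hΛ : ∀ U, ((Λ U : V ≃ₗ[K] V) : V →ₗ[K] V) = 1 + j ((U : Matrix (Fin 2) (Fin 2) D) - 1) := fun U => coe_Lam _ _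
  have hΛinj : ∀ U, Λ U = 1 → U = 1 := by
    intro U h
    have h4 : IsSc (Lam j (Matrix.SpecialLinearGroup.toGL U)) := ⟨1, fun v => by
      have h5 : Lam j (Matrix.SpecialLinearGroup.toGL U) = 1 := h
      rw [h5, one_smul]
      rfl⟩
    have h5 := C.eq_one h4
    exact Subtype.ext (congrArg Units.val h5)
  obtain ⟨X, hX⟩ := C.mem_E L.xE
  have hyE : rh * xh * rh⁻¹ ∈ Eh := (mem_normalizer_iff.1 L.rE xh).1 L.xE
  obtain ⟨Y, hY⟩ := C.mem_E hyE
  have hX' : Λ X = xh := hX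
  have hY' : Λ Y = rh * xh * rh⁻¹ := hY
  obtain ⟨k, hk⟩ := L.x_five
  have hXk : X ^ 5 ^ k = 1 := hΛinj _ (by rw [map_pow, hX', hk])
  have hYk : Y ^ 5 ^ k = 1 := hΛinj _ (by
    rw [map_pow, hY', conj_pow, hk, mul_one, mul_inv_cancel])
  have hx1 : xh ≠ 1 := by
    rintro rfl
    have h4 := L.pi_x (L.Eh_le L.xE)
    have h5 : (⟨1, L.Eh_le L.xE⟩ : ↥Gh) = 1 := rfl
    rw [h5, map_one] at h4
    have h6 := Kt.psi_x (Kt.E_A Kt.xE)
    have h7 : (⟨x, Kt.E_A Kt.xE⟩ : ↥A) = 1 := Subtype.ext h4.symm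
    rw [h7, map_one] at h6
    exact c5_ne h6.symm
  have hX1 : X ≠ 1 := by
    rintro rfl
    exact hx1 (by rw [← hX', map_one])
  have hY1 : Y ≠ 1 := by
    rintro rfl
    rw [map_one] at hY'
    apply hx1
    have h4 : rh * xh = rh := by
      have := congrArg (fun t => t * rh) hY'
      simpa using this.symm
    exact mul_eq_left.1 h4
  have hcop : Nat.Coprime 6 (5 ^ k) := Nat.Coprime.pow_right k (by norm_num)
  have h6 : ∀ U : Matrix.SpecialLinearGroup (Fin 2) D, U ≠ 1 → U ^ 5 ^ k = 1 → Cfsg.Agent.H402.PSL2Cls.tr U ^ 2 ≠ 4 := by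
    intro U hU hUk h4
    exact hU ((pow_eq_one_iff_of_coprime hcop).1 ⟨pow_six h3 U h4, hUk⟩)
  set t := Cfsg.Agent.H402.PSL2Cls.tr X with ht
  obtain ⟨t0, ht0⟩ := hbij.2 t
  have hsm : ∀ M : Matrix (Fin 2) (Fin 2) D, t0 • M = t • M := by
    intro M
    rw [← ht0]
    exact (algebraMap_smul D t0 M).symm
  -- the polynomial relation
  have hrel : ∀ U : Matrix.SpecialLinearGroup (Fin 2) D,
      (((Λ U : V ≃ₗ[K] V) : V →ₗ[K] V) - 1 : Module.End K V) *
        ((((Λ U : V ≃ₗ[K] V) : V →ₗ[K] V) : Module.End K V) * ((Λ U : V ≃ₗ[K] V) : V →ₗ[K] V) -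
          t0 • (((Λ U : V ≃ₗ[K] V) : V →ₗ[K] V) : Module.End K V) + 1) =
      j (((U : Matrix (Fin 2) (Fin 2) D) - 1) * ((U : Matrix (Fin 2) (Fin 2) D) * U - t • (U : Matrix (Fin 2) (Fin 2) D) + 1)) := by
    intro U
    set M := (U : Matrix (Fin 2) (Fin 2) D) with hM
    have h7 : (((Λ U : V ≃ₗ[K] V) : V →ₗ[K] V) : Module.End K V) = 1 + j (M - 1) := hΛ U
    rw [h7]
    have h8 : (M - 1) * (M * M - t • M + 1) = (M - 1) + (M - 1) + ((M - 1) * (M - 1) + (M - 1) * (M - 1))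
        + (M - 1) * ((M - 1) * (M - 1)) - t0 • (M - 1) - t0 • ((M - 1) * (M - 1)) := by
      rw [hsm, hsm]
      simp only [mul_sub, sub_mul, mul_add, add_mul, mul_one, one_mul, Matrix.mul_smul, smul_sub, Matrix.smul_mul]
      abel
    rw [h8]
    simp only [map_add, map_sub, map_mul, map_smul]
    simp only [mul_sub, sub_mul, mul_add, add_mul, mul_one, one_mul, smul_add, mul_smul_comm]
    abel
  have hPX : (X : Matrix (Fin 2) (Fin 2) D) * X - t • (X : Matrix (Fin 2) (Fin 2) D) + 1 = 0 := by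
    rw [ch X, ← ht]
    abel
  have hzX := hrel X
  rw [hPX, mul_zero, map_zero, hX'] at hzX
  have hzY : (((Λ Y : V ≃ₗ[K] V) : V →ₗ[K] V) - 1 : Module.End K V) *
        ((((Λ Y : V ≃ₗ[K] V) : V →ₗ[K] V) : Module.End K V) * ((Λ Y : V ≃ₗ[K] V) : V →ₗ[K] V) -
          t0 • (((Λ Y : V ≃ₗ[K] V) : V →ₗ[K] V) : Module.End K V) + 1) = 0 := by
    rw [hY']
    have h7 : (((rh * xh * rh⁻¹ : V ≃ₗ[K] V) : V →ₗ[K] V) : Module.End K V) =
        (((rh : V ≃ₗ[K] V) : V →ₗ[K] V) : Module.End K V) * ((xh : V ≃ₗ[K] V) : V →ₗ[K] V) *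
          ((rh⁻¹ : V ≃ₗ[K] V) : V →ₗ[K] V) := rfl
    have h8 : (((rh : V ≃ₗ[K] V) : V →ₗ[K] V) : Module.End K V) * ((rh⁻¹ : V ≃ₗ[K] V) : V →ₗ[K] V) = 1 :=
      LinearMap.ext fun v => rh.apply_symm_apply v
    have h9 : (((rh⁻¹ : V ≃ₗ[K] V) : V →ₗ[K] V) : Module.End K V) * ((rh : V ≃ₗ[K] V) : V →ₗ[K] V) = 1 :=
      LinearMap.ext fun v => rh.symm_apply_apply v
    rw [h7]
    set R : Module.End K V := ((rh : V ≃ₗ[K] V) : V →ₗ[K] V) with hR
    set R' : Module.End K V := ((rh⁻¹ : V ≃ₗ[K] V) : V →ₗ[K] V) with hR'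
    set Z : Module.End K V := ((xh : V ≃ₗ[K] V) : V →ₗ[K] V) with hZ
    have h10 : (R * Z * R' - 1) * (R * Z * R' * (R * Z * R') - t0 • (R * Z * R') + 1) =
        R * ((Z - 1) * (Z * Z - t0 • Z + 1)) * R' := by
      have e1 : R * Z * R' - 1 = R * (Z - 1) * R' := by
        rw [mul_sub, sub_mul, mul_one, h8]
      have e2 : R * Z * R' * (R * Z * R') = R * (Z * Z) * R' := by
        calc R * Z * R' * (R * Z * R') = R * Z * (R' * R) * Z * R' := by simp only [mul_assoc]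
          _ = _ := by rw [h9, mul_one]; simp only [mul_assoc]
      have e3 : R * Z * R' * (R * Z * R') - t0 • (R * Z * R') + 1 = R * (Z * Z - t0 • Z + 1) * R' := by
        rw [e2, mul_add, mul_sub, add_mul, sub_mul, mul_one, h8, mul_smul_comm, smul_mul_assoc]
      rw [e1, e3]
      calc R * (Z - 1) * R' * (R * (Z * Z - t0 • Z + 1) * R') = R * (Z - 1) * (R' * R) * (Z * Z - t0 • Z + 1) * R' := by
            simp only [mul_assoc]
        _ = _ := by rw [h9, mul_one]; simp only [mul_assoc]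
    rw [h10, hzX, mul_zero, zero_mul]
  rw [hrel Y] at hzY
  have hz2 := C.inj (hzY.trans (map_zero j).symm)
  -- `Y - 1` is invertible
  have hdet : IsUnit ((Y : Matrix (Fin 2) (Fin 2) D) - 1) := by
    rw [Matrix.isUnit_iff_isUnit_det, isUnit_iff_ne_zero]
    intro h0
    have h7 : Cfsg.Agent.H402.PSL2Cls.tr Y = 2 := by
      have hd := Cfsg.Agent.H402.PSL2Cls.det_eq Y
      rw [Matrix.det_fin_two] at h0
      simp only [Matrix.sub_apply, Matrix.one_apply, if_true, one_ne_zero, zero_ne_one, if_false, sub_zero] at h0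
      unfold Cfsg.Agent.H402.PSL2Cls.tr
      linear_combination hd - h0
    exact h6 Y hY1 hYk (by rw [h7]; norm_num)
  have hPY : (Y : Matrix (Fin 2) (Fin 2) D) * Y - t • (Y : Matrix (Fin 2) (Fin 2) D) + 1 = 0 :=
    (hdet.mul_right_eq_zero).1 hz2
  have htt : Cfsg.Agent.H402.PSL2Cls.tr Y = t := by
    rw [ch Y] at hPY
    have h7 : (Cfsg.Agent.H402.PSL2Cls.tr Y - t) • (Y : Matrix (Fin 2) (Fin 2) D) = 0 := by
      rw [sub_smul, ← hPY]
      abel
    rcases smul_eq_zero.1 h7 with h8 | h8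
    · exact sub_eq_zero.1 h8
    · exfalso
      have h9 := Y.2
      rw [h8, Matrix.det_zero] at h9
      exact zero_ne_one h9
  obtain ⟨g, hg⟩ := Cfsg.Agent.H402.PSL2Cls.exists_conj_of_tr_eq (M := X) (N := Y) (by rw [htt, ht]) (h6 X hX1 hXk)
  have hgm : Λ g ∈ Gh := hmem g
  have hcN := comm_pi hL L hgm fun n hn => C.Lam_comm _ hn
  refine Kt.T7 (g := π ⟨Λ g, hgm⟩) (Kt.comm_mem hcN) (hcN s Kt.sN) ?_
  have h7 : π ⟨xh, L.Eh_le L.xE⟩ = x := L.pi_x _
  have h8 : π ⟨rh, L.rG⟩ = r := L.pi_r _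
  have h9 : π ⟨Λ g, hgm⟩ * π ⟨xh, L.Eh_le L.xE⟩ * (π ⟨Λ g, hgm⟩)⁻¹ =
      π ⟨rh, L.rG⟩ * π ⟨xh, L.Eh_le L.xE⟩ * (π ⟨rh, L.rG⟩)⁻¹ := by
    rw [← map_mul, ← map_inv, ← map_mul, ← map_mul, ← map_inv, ← map_mul]
    refine congrArg π (Subtype.ext ?_)
    change Λ g * xh * (Λ g)⁻¹ = rh * xh * rh⁻¹
    rw [← hY', ← hX', hg, map_mul, map_mul, map_inv]
  rwa [h7, h8] at h9

/-- **The contradiction for `SL(V)`.** -/
theorem psl_false [Finite G] [Finite K] [FiniteDimensional K V] (h2 : (2 : K) ≠ 0) (Kt : Kit N0 A E z s x r ψ)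
    (hL : Lin Gh π) (L : LKit Gh π N0 A E z s x r Nh Eh zh sh xh rh)
    (hGh : ∀ g : V ≃ₗ[K] V, LinearMap.det (g : V →ₗ[K] V) = 1 → g ∈ Gh) : False := by
  classical
  obtain ⟨n, D, hDf, hDfin, hDa, j, C⟩ := exists_comp h2 Kt hL L hGh
  obtain ⟨hn, hD, hmem⟩ := two_nine h2 Kt hL L hGh C
  subst hn
  have hft := Fintype.ofFinite D
  have hfk := Fintype.ofFinite K
  have hpow : Nat.card D = Nat.card K ^ finrank K D := Module.natCard_eq_pow_finrank
  rw [hD] at hpow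
  have hq1 : 1 < Nat.card K := Finite.one_lt_card
  have hfr : finrank K D ≠ 0 := by
    intro h0
    rw [h0, pow_zero] at hpow
    norm_num at hpow
  have hdvd : Nat.card K ∣ 9 := by
    rw [hpow]
    exact dvd_pow_self _ hfr
  have hle : Nat.card K ≤ 9 := Nat.le_of_dvd (by norm_num) hdvd
  have h39 : Nat.card K = 3 ∨ Nat.card K = 9 := by
    generalize Nat.card K = q at *
    interval_cases q <;> first | omega | (exfalso; revert hdvd; decide)
  rcases h39 with h | h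
  · exact case_three Kt hL L hGh C hD h
  · exact case_nine Kt hL L C hmem hD h

end Cfsg.Agent.H375.C3
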