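import Cfsg.Agent.H375.C3.Pair

/-!
# S1920, PSU: the unitary component `SU_2(q)` (helper375)
-/

set_option autoImplicit false

open Subgroup Module
open scoped commutatorElement

namespace Cfsg.Agent.H375.C3

open Cfsg.Agent.H415.C3
open Cfsg.Agent.H601.C3 (Star hc Dec)

universe u v w

section F

variable {K : Type u} [Field K] {σ : K ≃+* K}

/-- the fixed field of `σ` -/
def fxF (σ : K ≃+* K) : Subfield K where
  carrier := {x | σ x = x}
  mul_mem' := fun {a b} ha hb => by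
    change σ (a * b) = a * b
    rw [map_mul, show σ a = a from ha, show σ b = b from hb]
  one_mem' := map_one σ
  add_mem' := fun {a b} ha hb => by
    change σ (a + b) = a + b
    rw [map_add, show σ a = a from ha, show σ b = b from hb]
  zero_mem' := map_zero σ
  neg_mem' := fun {a} ha => by
    change σ (-a) = -a
    rw [map_neg, show σ a = a from ha]
  inv_mem' := fun a ha => by
    change σ a⁻¹ = a⁻¹
    rw [map_inv₀, show σ a = a from ha]

theorem mem_fxF {x : K} : x ∈ fxF σ ↔ σ x = x := Iff.rfl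

/-- the matrix transporting `SU_2(K)` to `SL_2(D)` -/
theorem exists_P [Finite K] (h2 : (2 : K) ≠ 0) {q : ℕ} (hq : Nat.card K = q ^ 2) (hσ : ∀ c, σ c = c ^ q) :
    ∃ (P Q : Matrix (Fin 2) (Fin 2) K) (c : K), P * Q = 1 ∧ Q * P = 1 ∧ c ≠ 0 ∧ P.map σ = c • (P * !![0, 1; -1, 0]) := by
  classical
  have hft := Fintype.ofFinite K
  have hq1 : 1 < Nat.card K := Finite.one_lt_card
  have hodd : Odd (Nat.card K) := by
    rw [Nat.card_eq_fintype_card]
    have h3 : ringChar K ≠ 2 := by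
      intro h
      have h4 : ((2 : ℕ) : K) = 0 := by rw [← h]; exact ringChar.Nat.cast_ringChar
      exact h2 (by exact_mod_cast h4)
    rw [Nat.odd_iff]
    exact FiniteField.odd_card_of_char_ne_two h3
  have hqo : Odd q := by
    rw [hq] at hodd
    exact (Nat.odd_pow_iff two_ne_zero).1 hodd
  have hq2 : 2 < q := by
    obtain ⟨k, hk⟩ := hqo
    rcases Nat.eq_zero_or_pos k with h | h
    · rw [h] at hk
      rw [hq, hk] at hq1
      norm_num at hq1
    · omega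
  have hσσ : ∀ x, σ (σ x) = x := by
    intro x
    rw [hσ, hσ, ← pow_mul, ← pow_two, ← hq, Nat.card_eq_fintype_card, FiniteField.pow_card]
  obtain ⟨ω, hω⟩ := IsCyclic.exists_generator (α := Kˣ)
  have ho : orderOf ω = q ^ 2 - 1 := by
    rw [orderOf_eq_card_of_forall_mem_zpowers hω, Nat.card_units, hq]
  obtain ⟨k, hk⟩ := hqo
  have hk0 : 0 < k := by omega
  -- `c`
  obtain ⟨c, hc⟩ : ∃ c : K, c * σ c = -1 := by
    refine ⟨((ω ^ k : Kˣ) : K), ?_⟩
    rw [hσ, ← pow_succ']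
    have h4 : (((ω ^ k : Kˣ) : K) ^ (q + 1)) = ((ω ^ (k * (q + 1)) : Kˣ) : K) := by
      rw [← Units.val_pow_eq_pow_val, ← pow_mul]
    rw [h4]
    have h5 : ((ω ^ (k * (q + 1)) : Kˣ) : K) * ((ω ^ (k * (q + 1)) : Kˣ) : K) = 1 := by
      rw [← Units.val_mul, ← pow_add]
      have h6 : k * (q + 1) + k * (q + 1) = orderOf ω := by
        rw [ho, hk]
        have : (2 * k + 1) ^ 2 = k * (2 * k + 1 + 1) + k * (2 * k + 1 + 1) + 1 := by ring
        omega
      rw [h6, pow_orderOf_eq_one, Units.val_one]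
    have h6 : ((ω ^ (k * (q + 1)) : Kˣ) : K) ≠ 1 := by
      intro h
      have h7 : ω ^ (k * (q + 1)) = 1 := Units.ext h
      have h8 := Nat.le_of_dvd (by positivity) (orderOf_dvd_of_pow_eq_one h7)
      rw [ho, hk] at h8
      have : (2 * k + 1) ^ 2 = k * (2 * k + 1 + 1) + k * (2 * k + 1 + 1) + 1 := by ring
      have h9 : 0 < k * (2 * k + 1 + 1) := by positivity
      omega
    exact (mul_self_eq_one_iff.1 h5).resolve_left h6
  have hc0 : c ≠ 0 := by
    rintro rfl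
    rw [zero_mul] at hc
    exact one_ne_zero (neg_eq_zero.1 hc.symm)
  have hσc : σ c = -c⁻¹ := by
    field_simp
    linear_combination hc
  -- `e`
  obtain ⟨e, he⟩ : ∃ e : K, σ e ≠ e := by
    refine ⟨(ω : K), ?_⟩
    rw [hσ]
    intro h
    have h4 : ω ^ (q - 1) = 1 := by
      refine Units.ext ?_
      rw [Units.val_pow_eq_pow_val, Units.val_one]
      have h5 : (ω : K) ^ (q - 1) * ω = 1 * ω := by
        rw [← pow_succ, Nat.sub_add_cancel (by omega), h, one_mul]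
      exact mul_right_cancel₀ ω.ne_zero h5
    have h5 := Nat.le_of_dvd (by omega) (orderOf_dvd_of_pow_eq_one h4)
    rw [ho] at h5
    have h6 : q < q ^ 2 := by nlinarith
    omega
  have hd : e - σ e ≠ 0 := fun h => he (sub_eq_zero.1 h).symm
  let P : Matrix (Fin 2) (Fin 2) K := !![1, -c⁻¹; e, -(σ e) * c⁻¹]
  let Q : Matrix (Fin 2) (Fin 2) K := (c * (e - σ e)⁻¹) • !![-(σ e) * c⁻¹, c⁻¹; -e, 1]
  have hPQ : P * Q = 1 := by
    ext a b
    fin_cases a <;> fin_cases b <;> simp [P, Q, Matrix.mul_apply, Fin.sum_univ_two] <;> field_simp <;> ring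
  refine ⟨P, Q, c, hPQ, mul_eq_one_comm.1 hPQ, hc0, ?_⟩
  ext a b
  fin_cases a <;> fin_cases b <;> simp [P, Matrix.mul_apply, Fin.sum_univ_two, map_inv₀, hσc, hσσ] <;> field_simp

/-- `SU_2` in terms of `J` -/
theorem hc_iff {X : Matrix (Fin 2) (Fin 2) K} (hX : X.det = 1) :
    hc σ X * X = 1 ↔ X.map σ = !![0, 1; -1, 0] * X * !![0, -1; 1, 0] := by
  have h1 : X * X.adjugate = 1 := by rw [Matrix.mul_adjugate, hX, one_smul]
  have h2 : X.adjugate * X = 1 := by rw [Matrix.adjugate_mul, hX, one_smul]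
  have h3 : X.adjugate.transpose = !![0, 1; -1, 0] * X * !![0, -1; 1, 0] := by
    rw [Matrix.adjugate_fin_two, Matrix.eta_fin_two X]
    ext a b
    fin_cases a <;> fin_cases b <;> simp [Matrix.mul_apply, Fin.sum_univ_two]
  rw [← h3]
  constructor
  · intro h
    have h4 : hc σ X = X.adjugate := by
      calc hc σ X = hc σ X * (X * X.adjugate) := by rw [h1, mul_one]
        _ = _ := by rw [← mul_assoc, h, one_mul]
    rw [← h4]
    unfold hc
    rw [Matrix.transpose_transpose]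
  · intro h
    unfold hc
    rw [h, Matrix.transpose_transpose, h2]

/-- `SL_2(D) → SU_2(K)` -/
def muP (P Q : Matrix (Fin 2) (Fin 2) K) (hPQ : P * Q = 1) (hQP : Q * P = 1) :
    Matrix.SpecialLinearGroup (Fin 2) (fxF σ) →* Matrix (Fin 2) (Fin 2) K where
  toFun U := Q * (U : Matrix (Fin 2) (Fin 2) (fxF σ)).map (fxF σ).subtype * P
  map_one' := by
    rw [Matrix.SpecialLinearGroup.coe_one, Matrix.map_one _ (map_zero _) (map_one _), mul_one, hQP]
  map_mul' U W := by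
    rw [Matrix.SpecialLinearGroup.coe_mul, Matrix.map_mul]
    calc Q * ((U : Matrix (Fin 2) (Fin 2) (fxF σ)).map (fxF σ).subtype * (W : Matrix (Fin 2) (Fin 2) (fxF σ)).map (fxF σ).subtype) * P
        = Q * (U : Matrix (Fin 2) (Fin 2) (fxF σ)).map (fxF σ).subtype * 1 *
            (W : Matrix (Fin 2) (Fin 2) (fxF σ)).map (fxF σ).subtype * P := by noncomm_ring
      _ = _ := by rw [← hPQ]; noncomm_ring

theorem muP_det {P Q : Matrix (Fin 2) (Fin 2) K} (hPQ : P * Q = 1) (hQP : Q * P = 1)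
    (U : Matrix.SpecialLinearGroup (Fin 2) (fxF σ)) : (muP P Q hPQ hQP U).det = 1 := by
  change (Q * (U : Matrix (Fin 2) (Fin 2) (fxF σ)).map (fxF σ).subtype * P).det = 1
  have h1 : ((U : Matrix (Fin 2) (Fin 2) (fxF σ)).map (fxF σ).subtype).det = 1 := by
    have h2 := RingHom.map_det (fxF σ).subtype (U : Matrix (Fin 2) (Fin 2) (fxF σ))
    rw [U.2, map_one] at h2
    exact h2.symm
  have h2 : Q.det * P.det = 1 := by rw [← Matrix.det_mul, hQP, Matrix.det_one]
  rw [Matrix.det_mul, Matrix.det_mul, h1, mul_one, h2]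

theorem muP_hc {P Q : Matrix (Fin 2) (Fin 2) K} (hPQ : P * Q = 1) (hQP : Q * P = 1) {c : K} (hc0 : c ≠ 0)
    (hP : P.map σ = c • (P * !![0, 1; -1, 0])) (U : Matrix.SpecialLinearGroup (Fin 2) (fxF σ)) :
    hc σ (muP P Q hPQ hQP U) * muP P Q hPQ hQP U = 1 := by
  rw [hc_iff (muP_det hPQ hQP U)]
  have hJ : (!![0, 1; -1, 0] : Matrix (Fin 2) (Fin 2) K) * !![0, -1; 1, 0] = 1 := by
    ext a b
    fin_cases a <;> fin_cases b <;> simp [Matrix.mul_apply, Fin.sum_univ_two]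
  have hJ' : (!![0, -1; 1, 0] : Matrix (Fin 2) (Fin 2) K) * !![0, 1; -1, 0] = 1 := mul_eq_one_comm.1 hJ
  have hQ : Q.map σ = c⁻¹ • (!![0, -1; 1, 0] * Q) := by
    have h1 : P.map σ * Q.map σ = 1 := by
      rw [← Matrix.map_mul, hPQ, Matrix.map_one _ (map_zero _) (map_one _)]
    have h2 : P.map σ * (c⁻¹ • (!![0, -1; 1, 0] * Q)) = 1 := by
      rw [hP, smul_mul_smul_comm, mul_inv_cancel₀ hc0, one_smul]
      calc P * !![0, 1; -1, 0] * (!![0, -1; 1, 0] * Q) = P * (!![0, 1; -1, 0] * !![0, -1; 1, 0]) * Q := by noncomm_ring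
        _ = 1 := by rw [hJ, mul_one, hPQ]
    have h3 : Q.map σ * P.map σ = 1 := mul_eq_one_comm.1 h1
    calc Q.map σ = Q.map σ * (P.map σ * (c⁻¹ • (!![0, -1; 1, 0] * Q))) := by rw [h2, mul_one]
      _ = _ := by rw [← mul_assoc, h3, one_mul]
  have hU : ((U : Matrix (Fin 2) (Fin 2) (fxF σ)).map (fxF σ).subtype).map σ =
      (U : Matrix (Fin 2) (Fin 2) (fxF σ)).map (fxF σ).subtype := by
    ext a b
    exact (U a b).2
  change (Q * (U : Matrix (Fin 2) (Fin 2) (fxF σ)).map (fxF σ).subtype * P).map σ =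
    !![0, 1; -1, 0] * (Q * (U : Matrix (Fin 2) (Fin 2) (fxF σ)).map (fxF σ).subtype * P) * !![0, -1; 1, 0]
  rw [Matrix.map_mul, Matrix.map_mul, hU, hQ, hP]
  have hneg : (!![0, 1; -1, 0] : Matrix (Fin 2) (Fin 2) K) = -!![0, -1; 1, 0] := by
    ext a b
    fin_cases a <;> fin_cases b <;> simp
  rw [smul_mul_assoc, smul_mul_smul_comm, inv_mul_cancel₀ hc0, one_smul, hneg]
  noncomm_ring

/-- every element of `SU_2(K)` is in the image -/
theorem muP_surj {P Q : Matrix (Fin 2) (Fin 2) K} (hPQ : P * Q = 1) (hQP : Q * P = 1) {c : K} (hc0 : c ≠ 0)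
    (hP : P.map σ = c • (P * !![0, 1; -1, 0])) {X : Matrix (Fin 2) (Fin 2) K} (hX : X.det = 1) (hXu : hc σ X * X = 1) :
    ∃ U : Matrix.SpecialLinearGroup (Fin 2) (fxF σ), muP P Q hPQ hQP U = X := by
  rw [hc_iff hX] at hXu
  have hJ : (!![0, 1; -1, 0] : Matrix (Fin 2) (Fin 2) K) * !![0, -1; 1, 0] = 1 := by
    ext a b
    fin_cases a <;> fin_cases b <;> simp [Matrix.mul_apply, Fin.sum_univ_two]
  have hJ' : (!![0, -1; 1, 0] : Matrix (Fin 2) (Fin 2) K) * !![0, 1; -1, 0] = 1 := mul_eq_one_comm.1 hJ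
  have hQ : Q.map σ = c⁻¹ • (!![0, -1; 1, 0] * Q) := by
    have h1 : P.map σ * Q.map σ = 1 := by
      rw [← Matrix.map_mul, hPQ, Matrix.map_one _ (map_zero _) (map_one _)]
    have h2 : P.map σ * (c⁻¹ • (!![0, -1; 1, 0] * Q)) = 1 := by
      rw [hP, smul_mul_smul_comm, mul_inv_cancel₀ hc0, one_smul]
      calc P * !![0, 1; -1, 0] * (!![0, -1; 1, 0] * Q) = P * (!![0, 1; -1, 0] * !![0, -1; 1, 0]) * Q := by noncomm_ring
        _ = 1 := by rw [hJ, mul_one, hPQ]
    have h3 : Q.map σ * P.map σ = 1 := mul_eq_one_comm.1 h1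
    calc Q.map σ = Q.map σ * (P.map σ * (c⁻¹ • (!![0, -1; 1, 0] * Q))) := by rw [h2, mul_one]
      _ = _ := by rw [← mul_assoc, h3, one_mul]
  have hneg : (!![0, 1; -1, 0] : Matrix (Fin 2) (Fin 2) K) = -!![0, -1; 1, 0] := by
    ext a b
    fin_cases a <;> fin_cases b <;> simp
  have hJJ : (!![0, -1; 1, 0] : Matrix (Fin 2) (Fin 2) K) * !![0, -1; 1, 0] = -1 := by
    rw [hneg, neg_mul] at hJ
    rw [← hJ, neg_neg]
  have hfix : (P * X * Q).map σ = P * X * Q := by
    rw [Matrix.map_mul, Matrix.map_mul, hXu, hP, hQ, smul_mul_assoc, smul_mul_smul_comm, mul_inv_cancel₀ hc0, one_smul, hneg]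
    calc P * -!![0, -1; 1, 0] * (-!![0, -1; 1, 0] * X * !![0, -1; 1, 0]) * (!![0, -1; 1, 0] * Q)
        = P * (!![0, -1; 1, 0] * !![0, -1; 1, 0]) * X * (!![0, -1; 1, 0] * !![0, -1; 1, 0]) * Q := by noncomm_ring
      _ = _ := by rw [hJJ]; noncomm_ring
  have hfx : ∀ a b, (P * X * Q) a b ∈ fxF σ := fun a b => congrFun (congrFun hfix a) b
  let U0 : Matrix (Fin 2) (Fin 2) (fxF σ) := Matrix.of fun a b => ⟨(P * X * Q) a b, hfx a b⟩
  have hU0 : U0.map (fxF σ).subtype = P * X * Q := by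
    ext a b
    rfl
  have hdet : U0.det = 1 := by
    have h2 := RingHom.map_det (fxF σ).subtype U0
    have h3 : (fxF σ).subtype.mapMatrix U0 = P * X * Q := hU0
    rw [h3, Matrix.det_mul, Matrix.det_mul, hX, mul_one] at h2
    have h4 : P.det * Q.det = 1 := by rw [← Matrix.det_mul, hPQ, Matrix.det_one]
    rw [h4] at h2
    exact (fxF σ).subtype.injective (h2.trans (map_one _).symm)
  refine ⟨⟨U0, hdet⟩, ?_⟩
  change Q * U0.map (fxF σ).subtype * P = X
  rw [hU0]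
  calc Q * (P * X * Q) * P = (Q * P) * X * (Q * P) := by noncomm_ring
    _ = X := by rw [hQP, one_mul, mul_one]

theorem muP_tr {P Q : Matrix (Fin 2) (Fin 2) K} (hPQ : P * Q = 1) (hQP : Q * P = 1)
    (U : Matrix.SpecialLinearGroup (Fin 2) (fxF σ)) :
    (muP P Q hPQ hQP U).trace = ((Cfsg.Agent.H402.PSL2Cls.tr U : fxF σ) : K) := by
  change (Q * (U : Matrix (Fin 2) (Fin 2) (fxF σ)).map (fxF σ).subtype * P).trace = _
  rw [Matrix.trace_mul_comm, ← mul_assoc, hPQ, one_mul, Matrix.trace_fin_two]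
  rfl

end F

variable {G : Type*} [Group G] {K : Type u} [Field K] {V : Type v} [AddCommGroup V] [Module K V]
variable {Gh : Subgroup (V ≃ₗ[K] V)} {π : ↥Gh →* G} {N0 A E : Subgroup G} {z s x r : G}
  {ψ : ↥A →* Equiv.Perm (Fin 6)} {Nh Eh : Subgroup (V ≃ₗ[K] V)} {zh sh xh rh : V ≃ₗ[K] V}
variable {σ : K ≃+* K} {ad : Module.End K V → Module.End K V}

section R

variable {n : ℕ} {φ : Matrix (Fin n) (Fin n) K →ₗ[K] Module.End K V}

theorem lamL_apply (hm : ∀ X Y, φ (X * Y) = φ X * φ Y) (X : Matrix (Fin n) (Fin n) K) : lamL hm X = 1 + φ (X - 1) := rfl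

theorem lamL_inj (hm : ∀ X Y, φ (X * Y) = φ X * φ Y) (hinj : Function.Injective φ) : Function.Injective (lamL hm) := by
  intro X Y h
  rw [lamL_apply, lamL_apply] at h
  exact sub_left_injective (hinj (add_left_cancel h))

/-- the polynomial relation -/
theorem rel_phi (hm : ∀ X Y, φ (X * Y) = φ X * φ Y) (t : K) (M : Matrix (Fin n) (Fin n) K) :
    (lamL hm M - 1) * (lamL hm M * lamL hm M - t • lamL hm M + 1) = φ ((M - 1) * (M * M - t • M + 1)) := by
  rw [lamL_apply]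
  have h8 : (M - 1) * (M * M - t • M + 1) = (M - 1) + (M - 1) + ((M - 1) * (M - 1) + (M - 1) * (M - 1))
      + (M - 1) * ((M - 1) * (M - 1)) - t • (M - 1) - t • ((M - 1) * (M - 1)) := by
    simp only [mul_sub, sub_mul, mul_add, add_mul, mul_one, one_mul, Matrix.mul_smul, smul_sub, Matrix.smul_mul]
    abel
  rw [h8]
  simp only [map_add, map_sub, hm, map_smul]
  simp only [mul_sub, sub_mul, mul_add, add_mul, mul_one, one_mul, smul_add, mul_smul_comm, smul_sub]
  abel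

end R

/-- **The unitary component of degree 2 is impossible.** -/
theorem uni_two [Finite G] [Finite K] (h2 : (2 : K) ≠ 0)
    (Kt : Kit N0 A E z s x r ψ) (hL : Lin Gh π) (L : LKit Gh π N0 A E z s x r Nh Eh zh sh xh rh)
    (hS : Star σ ad)
    (hGh : ∀ g : V ≃ₗ[K] V, g ∈ Gh ↔ (cl g * ad (cl g) = 1 ∧ LinearMap.det (cl g) = 1))
    {q : ℕ} (hq : Nat.card K = q ^ 2) (hσ : ∀ c, σ c = c ^ q)
    {n : ℕ} (hn : n = 2) {φ : Matrix (Fin n) (Fin n) K →ₗ[K] Module.End K V}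
    (hm : ∀ X Y, φ (X * Y) = φ X * φ Y) (hinj : Function.Injective φ)
    (hcomm : ∀ X, ∀ g ∈ Nh, φ X * cl g = cl g * φ X) (hstar : ∀ X, ad (φ X) = φ (hc σ X))
    (hE : ∀ e ∈ Eh, ∃ X : Matrix.SpecialLinearGroup (Fin n) K,
      hc σ (X : Matrix (Fin n) (Fin n) K) * X = 1 ∧ cl e = 1 + φ ((X : Matrix (Fin n) (Fin n) K) - 1)) : False := by
  classical
  subst hn
  have hft := Fintype.ofFinite K
  obtain ⟨P, Q, c, hPQ, hQP, hc0, hP⟩ := exists_P h2 hq hσ
  have hD2 : (2 : fxF σ) ≠ 0 := by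
    intro h
    apply h2
    have h4 := congrArg (fxF σ).subtype h
    rw [map_ofNat, map_zero] at h4
    exact h4
  have hDfin : Finite (fxF σ) := inferInstance
  have hftD := Fintype.ofFinite (fxF σ)
  have hodd : Odd (Nat.card (fxF σ)) := by
    rw [Nat.card_eq_fintype_card]
    have h3 : ringChar (fxF σ) ≠ 2 := by
      intro h
      have h4 : ((2 : ℕ) : fxF σ) = 0 := by rw [← h]; exact ringChar.Nat.cast_ringChar
      exact hD2 (by exact_mod_cast h4)
    rw [Nat.odd_iff]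
    exact FiniteField.odd_card_of_char_ne_two h3
  let θ : (Module.End K V)ˣ →* (V ≃ₗ[K] V) := (LinearMap.GeneralLinearGroup.generalLinearEquiv K V).toMonoidHom
  have hθ : ∀ w : (Module.End K V)ˣ, cl (θ w) = (w : Module.End K V) := fun w => LinearMap.ext fun v => rfl
  let μ : Matrix.SpecialLinearGroup (Fin 2) (fxF σ) →* Matrix (Fin 2) (Fin 2) K := muP P Q hPQ hQP
  let Λ : Matrix.SpecialLinearGroup (Fin 2) (fxF σ) →* (V ≃ₗ[K] V) := θ.comp ((lamL hm).comp μ).toHomUnits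
  have hΛ : ∀ U, cl (Λ U) = lamL hm (μ U) := fun U => hθ _
  have hμi : Function.Injective μ := by
    intro U W h
    have h3 : (U : Matrix (Fin 2) (Fin 2) (fxF σ)).map (fxF σ).subtype = (W : Matrix (Fin 2) (Fin 2) (fxF σ)).map (fxF σ).subtype := by
      have h4 : Q * (U : Matrix (Fin 2) (Fin 2) (fxF σ)).map (fxF σ).subtype * P =
        Q * (W : Matrix (Fin 2) (Fin 2) (fxF σ)).map (fxF σ).subtype * P := h
      calc (U : Matrix (Fin 2) (Fin 2) (fxF σ)).map (fxF σ).subtype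
          = (P * Q) * (U : Matrix (Fin 2) (Fin 2) (fxF σ)).map (fxF σ).subtype * (P * Q) := by rw [hPQ, one_mul, mul_one]
        _ = P * (Q * (U : Matrix (Fin 2) (Fin 2) (fxF σ)).map (fxF σ).subtype * P) * Q := by noncomm_ring
        _ = (P * Q) * (W : Matrix (Fin 2) (Fin 2) (fxF σ)).map (fxF σ).subtype * (P * Q) := by rw [h4]; noncomm_ring
        _ = _ := by rw [hPQ, one_mul, mul_one]
    refine Subtype.ext ?_
    ext a b
    exact congrFun (congrFun h3 a) b
  have hΛN : ∀ U, ∀ g ∈ Nh, Λ U * g = g * Λ U := by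
    intro U g hg
    refine LinearEquiv.toLinearMap_injective ?_
    change cl (Λ U) * cl g = cl g * cl (Λ U)
    rw [hΛ, lamL_apply, add_mul, mul_add, one_mul, mul_one, hcomm _ g hg]
  have hΛu : ∀ U, cl (Λ U) * ad (cl (Λ U)) = 1 := by
    intro U
    have h3 : ad (cl (Λ U)) = lamL hm (hc σ (μ U)) := by
      rw [hΛ, lamL_apply, lamL_apply, hS.add, Star.one hS, hstar]
      congr 2
      unfold hc
      rw [Matrix.map_sub _ (map_sub σ), Matrix.map_one _ (map_zero σ) (map_one σ), Matrix.transpose_sub, Matrix.transpose_one]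
    rw [h3, hΛ, ← map_mul, mul_eq_one_comm.1 (muP_hc hPQ hQP hc0 hP U), map_one]
  have hΛG : commutator (Matrix.SpecialLinearGroup (Fin 2) (fxF σ)) = ⊤ → ∀ U, Λ U ∈ Gh := by
    intro hperf U
    rw [hGh]
    refine ⟨hΛu _, ?_⟩
    let f : Matrix.SpecialLinearGroup (Fin 2) (fxF σ) →* K :=
      (LinearMap.det : Module.End K V →* K).comp ((lamL hm).comp μ)
    have h3 : f.toHomUnits U = 1 := by
      have h4 : commutator (Matrix.SpecialLinearGroup (Fin 2) (fxF σ)) ≤ f.toHomUnits.ker :=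
        Abelianization.commutator_subset_ker f.toHomUnits
      rw [hperf] at h4
      exact h4 (mem_top U)
    have h5 := congrArg Units.val h3
    rw [hΛ]
    exact h5
  have hex : ∀ e ∈ Eh, ∃ U, Λ U = e := by
    intro e he
    obtain ⟨X, hX, heX⟩ := hE e he
    obtain ⟨U, hU⟩ := muP_surj hPQ hQP hc0 hP X.2 hX
    refine ⟨U, LinearEquiv.toLinearMap_injective ?_⟩
    change cl (Λ U) = cl e
    rw [hΛ, show μ U = (X : Matrix (Fin 2) (Fin 2) K) from hU, heX]
    rfl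
  obtain ⟨-, hD9, hmem⟩ := two_nine' Kt hL L hodd Λ hΛN hex hΛG
  -- characteristic three
  have h3D : (3 : fxF σ) = 0 := by
    have h1 : ((9 : ℕ) : fxF σ) = 0 := by
      rw [← hD9, Nat.card_eq_fintype_card]
      exact FiniteField.cast_card_eq_zero (fxF σ)
    have h2 : (3 : fxF σ) * 3 = 0 := by
      rw [← h1]
      norm_num
    exact mul_self_eq_zero.1 h2
  have hΛi : ∀ U, Λ U = 1 → U = 1 := by
    intro U h
    have h4 : lamL hm (μ U) = lamL hm (μ 1) := by
      rw [map_one, map_one, ← hΛ, h]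
      rfl
    exact hμi (lamL_inj hm hinj h4)
  obtain ⟨X, hX'⟩ := hex xh L.xE
  have hyE : rh * xh * rh⁻¹ ∈ Eh := (mem_normalizer_iff.1 L.rE xh).1 L.xE
  obtain ⟨Y, hY'⟩ := hex _ hyE
  obtain ⟨k, hk⟩ := L.x_five
  have hXk : X ^ 5 ^ k = 1 := hΛi _ (by rw [map_pow, hX', hk])
  have hYk : Y ^ 5 ^ k = 1 := hΛi _ (by
    rw [map_pow, hY', conj_pow, hk, mul_one, mul_inv_cancel])
  have hx1 : xh ≠ 1 := by
    rintro rfl
    have h4 := L.pi_x (L.Eh_le L.xE)
    have h5 : (⟨1, L.Eh_le L.xE⟩ : ↥Gh) = 1 := rfl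
    rw [h5, map_one] at h4
    have h6 := Kt.psi_x (Kt.E_A Kt.xE)
    have h7 : (⟨x, Kt.E_A Kt.xE⟩ : ↥A) = 1 := Subtype.ext h4.symm
    rw [h7, map_one] at h6
    exact c5_ne h6.symm
  have hX1 : X ≠ 1 := by
    rintro rfl
    exact hx1 (by rw [← hX', map_one])
  have hY1 : Y ≠ 1 := by
    rintro rfl
    rw [map_one] at hY'
    apply hx1
    have h4 : rh * xh = rh := by
      have := congrArg (fun t => t * rh) hY'
      simpa using this.symm
    exact mul_eq_left.1 h4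
  have hcop : Nat.Coprime 6 (5 ^ k) := Nat.Coprime.pow_right k (by norm_num)
  have h6 : ∀ U : Matrix.SpecialLinearGroup (Fin 2) (fxF σ), U ≠ 1 → U ^ 5 ^ k = 1 → Cfsg.Agent.H402.PSL2Cls.tr U ^ 2 ≠ 4 := by
    intro U hU hUk h4
    exact hU ((pow_eq_one_iff_of_coprime hcop).1 ⟨pow_six h3D U h4, hUk⟩)
  set t := Cfsg.Agent.H402.PSL2Cls.tr X with ht
  -- transport of the algebra of `M_2(D)` into `M_2(K)`
  have hμ2 : ∀ U : Matrix.SpecialLinearGroup (Fin 2) (fxF σ),
      μ U * μ U = ((Cfsg.Agent.H402.PSL2Cls.tr U : fxF σ) : K) • μ U - 1 := by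
    intro U
    have hd := muP_det hPQ hQP U
    have h7 := Cfsg.Agent.ClassicalGeometry.PSL2Basic.sl2_mul_self (⟨μ U, hd⟩ : Matrix.SpecialLinearGroup (Fin 2) K)
    rw [← muP_tr hPQ hQP U]
    exact h7
  have hzX : (cl xh - 1) * (cl xh * cl xh - ((t : fxF σ) : K) • cl xh + 1) = 0 := by
    have h7 := rel_phi hm ((t : fxF σ) : K) (μ X)
    have h8 : μ X * μ X - ((t : fxF σ) : K) • μ X + 1 = 0 := by
      rw [hμ2 X, ← ht]
      abel
    rw [h8, mul_zero, map_zero, ← hΛ, hX'] at h7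
    exact h7
  have hzY : (cl (rh * xh * rh⁻¹) - 1) * (cl (rh * xh * rh⁻¹) * cl (rh * xh * rh⁻¹) - ((t : fxF σ) : K) • cl (rh * xh * rh⁻¹) + 1) = 0 := by
    have h7 : cl (rh * xh * rh⁻¹) = cl rh * cl xh * cl rh⁻¹ := rfl
    have h8 := cl_mul_inv rh
    have h9 := cl_inv_mul rh
    rw [h7]
    set R : Module.End K V := cl rh
    set R' : Module.End K V := cl rh⁻¹
    set Z : Module.End K V := cl xh
    set t0 := ((t : fxF σ) : K)
    have h10 : (R * Z * R' - 1) * (R * Z * R' * (R * Z * R') - t0 • (R * Z * R') + 1) =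
        R * ((Z - 1) * (Z * Z - t0 • Z + 1)) * R' := by
      have e1 : R * Z * R' - 1 = R * (Z - 1) * R' := by
        rw [mul_sub, sub_mul, mul_one, h8]
      have e2 : R * Z * R' * (R * Z * R') = R * (Z * Z) * R' := by
        calc R * Z * R' * (R * Z * R') = R * Z * (R' * R) * Z * R' := by simp only [mul_assoc]
          _ = _ := by rw [h9, mul_one]; simp only [mul_assoc]
      have e3 : R * Z * R' * (R * Z * R') - t0 • (R * Z * R') + 1 = R * (Z * Z - t0 • Z + 1) * R' := by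
        rw [e2, mul_add, mul_sub, add_mul, sub_mul, mul_one, h8, mul_smul_comm, smul_mul_assoc]
      rw [e1, e3]
      calc R * (Z - 1) * R' * (R * (Z * Z - t0 • Z + 1) * R') = R * (Z - 1) * (R' * R) * (Z * Z - t0 • Z + 1) * R' := by
            simp only [mul_assoc]
        _ = _ := by rw [h9, mul_one]; simp only [mul_assoc]
    rw [h10, hzX, mul_zero, zero_mul]
  rw [← hY', hΛ, rel_phi hm] at hzY
  have hz2 := hinj (hzY.trans (map_zero φ).symm)
  -- `μ Y - 1` is invertible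
  have hdet : IsUnit (μ Y - 1) := by
    rw [Matrix.isUnit_iff_isUnit_det, isUnit_iff_ne_zero]
    intro h0
    have h7 : ((Cfsg.Agent.H402.PSL2Cls.tr Y : fxF σ) : K) = 2 := by
      have hd := muP_det hPQ hQP Y
      have htr := muP_tr hPQ hQP Y
      rw [← htr]
      change (μ Y).trace = 2
      change (μ Y).det = 1 at hd
      rw [Matrix.det_fin_two] at h0 hd
      rw [Matrix.trace_fin_two]
      simp only [Matrix.sub_apply, Matrix.one_apply, if_true, one_ne_zero, zero_ne_one, if_false, sub_zero] at h0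
      linear_combination hd - h0
    have h8 : Cfsg.Agent.H402.PSL2Cls.tr Y = 2 := (fxF σ).subtype.injective (by
      rw [map_ofNat]
      exact h7)
    exact h6 Y hY1 hYk (by rw [h8]; norm_num)
  have hPY : μ Y * μ Y - ((t : fxF σ) : K) • μ Y + 1 = 0 := (hdet.mul_right_eq_zero).1 hz2
  have htt : Cfsg.Agent.H402.PSL2Cls.tr Y = t := by
    rw [hμ2 Y] at hPY
    have h7 : (((Cfsg.Agent.H402.PSL2Cls.tr Y : fxF σ) : K) - ((t : fxF σ) : K)) • μ Y = 0 := by
      rw [sub_smul, ← hPY]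
      abel
    rcases smul_eq_zero.1 h7 with h8 | h8
    · exact Subtype.ext (sub_eq_zero.1 h8)
    · exfalso
      have h9 : (μ Y).det = 1 := muP_det hPQ hQP Y
      rw [h8, Matrix.det_zero] at h9
      exact zero_ne_one h9
  obtain ⟨g, hg⟩ := Cfsg.Agent.H402.PSL2Cls.exists_conj_of_tr_eq (M := X) (N := Y) (by rw [htt, ht]) (h6 X hX1 hXk)
  have hgm : Λ g ∈ Gh := hmem g
  have hcN := comm_pi hL L hgm fun n hn => hΛN g n hn
  refine Kt.T7 (g := π ⟨Λ g, hgm⟩) (Kt.comm_mem hcN) (hcN s Kt.sN) ?_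
  have h7 : π ⟨xh, L.Eh_le L.xE⟩ = x := L.pi_x _
  have h8 : π ⟨rh, L.rG⟩ = r := L.pi_r _
  have h9 : π ⟨Λ g, hgm⟩ * π ⟨xh, L.Eh_le L.xE⟩ * (π ⟨Λ g, hgm⟩)⁻¹ =
      π ⟨rh, L.rG⟩ * π ⟨xh, L.Eh_le L.xE⟩ * (π ⟨rh, L.rG⟩)⁻¹ := by
    rw [← map_mul, ← map_inv, ← map_mul, ← map_mul, ← map_inv, ← map_mul]
    refine congrArg π (Subtype.ext ?_)
    change Λ g * xh * (Λ g)⁻¹ = rh * xh * rh⁻¹
    rw [← hY', ← hX', hg, map_mul, map_mul, map_inv]
  rwa [h7, h8] at h9

end Cfsg.Agent.H375.C3
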