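import Mathlib

/-!
# The commutant of a semisimple linear group (helper375, S1920)

`exists_wed` : `N ≤ GL(V)` finite, `|N|` prime to the characteristic, `K` finite: there is an injective algebra
homomorphism `J : ∏ M_{m_i}(D_i) → End(V)` (finite fields `D_i ≥ K`) with image the commutant of `N`.
-/

set_option autoImplicit false

open Module

namespace Cfsg.Agent.H375.C3

universe u v

section Alg

variable {K : Type u} [Field K] {V : Type v} [AddCommGroup V] [Module K V]

/-- **Wedderburn for the commutant.** -/
theorem exists_wed [Finite K] [FiniteDimensional K V] (N : Subgroup (V ≃ₗ[K] V)) [Finite N] (hN : (Nat.card N : K) ≠ 0) :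
    ∃ (k : ℕ) (D : Fin k → Type v) (m : Fin k → ℕ) (_ : ∀ i, Field (D i)) (_ : ∀ i, Algebra K (D i))
      (_ : ∀ i, Finite (D i)) (_ : ∀ i, NeZero (m i)) (J : (∀ i, Matrix (Fin (m i)) (Fin (m i)) (D i)) →ₐ[K] Module.End K V),
      Function.Injective J ∧ ∀ T : Module.End K V, (∀ g ∈ N, T * (g : V →ₗ[K] V) = (g : V →ₗ[K] V) * T) ↔ ∃ X, J X = T := by
  classical
  -- the algebra generated by `N`
  let ρ : ↥N →* Module.End K V :=
    { toFun := fun g => ((g : V ≃ₗ[K] V) : V →ₗ[K] V)
      map_one' := rfl
      map_mul' := fun _ _ => rfl }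
  let L : MonoidAlgebra K ↥N →ₐ[K] Module.End K V := MonoidAlgebra.lift K (Module.End K V) ↥N ρ
  let R : Subalgebra K (Module.End K V) := L.range
  have hss : IsSemisimpleRing (MonoidAlgebra K ↥N) := by
    have : NeZero (Nat.card ↥N : K) := ⟨hN⟩
    infer_instance
  have hR : IsSemisimpleRing R :=
    RingHom.isSemisimpleRing_of_surjective (L.rangeRestrict : MonoidAlgebra K ↥N →+* R) L.rangeRestrict_surjective
  have hfin : Module.Finite R V := Module.Finite.of_restrictScalars_finite K R V
  obtain ⟨k, D, m, hD, hA, hm, ⟨Φ⟩⟩ := IsSemisimpleModule.exists_end_algEquiv_pi_matrix_divisionRing K R V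
  have hV : Finite V := Module.finite_of_finite K
  have hE : Finite (Module.End R V) := Finite.of_injective (fun f : Module.End R V => (f : V → V)) DFunLike.coe_injective
  have hP : Finite (∀ i, Matrix (Fin (m i)) (Fin (m i)) (D i)) := Finite.of_equiv _ Φ.toEquiv
  have hDf : ∀ i, Finite (D i) := fun i =>
    Finite.of_surjective (fun X : (∀ i, Matrix (Fin (m i)) (Fin (m i)) (D i)) => X i 0 0)
      fun d => ⟨fun j => if h : j = i then h ▸ (Matrix.of fun _ _ => d) else 0, by simp⟩
  -- the endomorphisms commuting with `R`
  let res : Module.End R V →ₐ[K] Module.End K V :=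
    { toFun := fun f => f.restrictScalars K
      map_one' := rfl
      map_mul' := fun _ _ => rfl
      map_zero' := rfl
      map_add' := fun _ _ => rfl
      commutes' := fun _ => rfl }
  have hres : Function.Injective res := fun f g h => LinearMap.ext fun v => congrArg (fun t : Module.End K V => t v) h
  refine ⟨k, D, m, fun i => littleWedderburn (D i), hA, hDf, hm, res.comp Φ.symm.toAlgHom, ?_, ?_⟩
  · exact hres.comp Φ.symm.injective
  · intro T
    constructor
    · intro hT
      -- `T` commutes with `R`
      have hc : ∀ a : MonoidAlgebra K ↥N, T * L a = L a * T := by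
        intro a
        induction a using MonoidAlgebra.induction_on with
        | of g =>
          rw [MonoidAlgebra.lift_of]
          exact hT g g.2
        | add a b ha hb => rw [map_add, mul_add, add_mul, ha, hb]
        | smul c a ha => rw [map_smul, mul_smul_comm, smul_mul_assoc, ha]
      let f : Module.End R V :=
        { toFun := T
          map_add' := T.map_add
          map_smul' := by
            rintro ⟨r, a, ha⟩ v
            have h1 := congrArg (fun t : Module.End K V => t v) (hc a)
            have h2 : L a = r := ha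
            subst h2
            exact h1 }
      refine ⟨Φ f, ?_⟩
      change res (Φ.symm (Φ f)) = T
      rw [AlgEquiv.symm_apply_apply]
      rfl
    · rintro ⟨X, rfl⟩ g hg
      have h1 : ρ ⟨g, hg⟩ ∈ R := ⟨MonoidAlgebra.of K ↥N ⟨g, hg⟩, MonoidAlgebra.lift_of _ _⟩
      refine LinearMap.ext fun v => ?_
      exact (Φ.symm X).map_smul (⟨ρ ⟨g, hg⟩, h1⟩ : R) v

end Alg

end Cfsg.Agent.H375.C3
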